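import Mathlib

/-!
# A Heisenberg type bound

A family of invertible operators on `W`, whose members are separated by the conjugation action of
invertible operators, is linearly independent; thus the size of the family is at most `(dim W)²`.
-/

set_option autoImplicit false
set_option linter.unusedSectionVars false
set_option linter.unusedSimpArgs false

namespace Cfsg.Agent.Lib.MinDeg.Heis

variable {W : Type*} [AddCommGroup W] [Module ℂ W] [FiniteDimensional ℂ W] [Nontrivial W]

theorem trace_eq_zero_of_scale {X h hi : Module.End ℂ W} {ζ : ℂ} (hh : h * hi = 1) (hh' : hi * h = 1)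
    (hX : h * X * hi = ζ • X) (hζ : ζ ≠ 1) : LinearMap.trace ℂ W X = 0 := by
  have h1 : LinearMap.trace ℂ W (h * X * hi) = LinearMap.trace ℂ W X := by
    rw [LinearMap.trace_mul_comm, ← mul_assoc, hh', one_mul]
  rw [hX, map_smul, smul_eq_mul] at h1
  have h2 : (ζ - 1) * LinearMap.trace ℂ W X = 0 := by linear_combination h1
  exact (mul_eq_zero.mp h2).resolve_left (sub_ne_zero.mpr hζ)

/-- **The Heisenberg bound.** -/
theorem card_le_sq {A : Type*} [Fintype A] (g gi : A → Module.End ℂ W) (hgi : ∀ a, g a * gi a = 1)
    (hgi' : ∀ a, gi a * g a = 1)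
    (hsep : ∀ a b, a ≠ b → ∃ (h hi : Module.End ℂ W) (ζ ζ' : ℂ), h * hi = 1 ∧ hi * h = 1 ∧
      h * g a * hi = ζ • g a ∧ h * g b * hi = ζ' • g b ∧ ζ ≠ ζ') :
    Fintype.card A ≤ Module.finrank ℂ W ^ 2 := by
  classical
  have htr : ∀ a b, a ≠ b → LinearMap.trace ℂ W (g a * gi b) = 0 := by
    intro a b hab
    obtain ⟨h, hi, ζ, ζ', hh, hh', h1, h2, hne⟩ := hsep a b hab
    have h0 : ζ' ≠ 0 := by
      rintro rfl
      rw [zero_smul] at h2
      have h3 : g b = 0 := by
        have h5 : hi * (h * g b * hi) * h = g b := by
          calc hi * (h * g b * hi) * h = (hi * h) * g b * (hi * h) := by simp only [mul_assoc]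
            _ = g b := by rw [hh', one_mul, mul_one]
        rw [← h5, h2]
        simp
      have h4 := hgi b
      rw [h3, zero_mul] at h4
      exact zero_ne_one h4
    have h3 : h * gi b * hi = ζ'⁻¹ • gi b := by
      have h4 : (h * g b * hi) * (h * gi b * hi) = 1 := by
        calc (h * g b * hi) * (h * gi b * hi) = h * g b * (hi * h) * gi b * hi := by
              simp only [mul_assoc]
          _ = h * (g b * gi b) * hi := by rw [hh', mul_one]; simp only [mul_assoc]
          _ = 1 := by rw [hgi, mul_one, hh]
      rw [h2, smul_mul_assoc] at h4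
      have h5 : g b * (h * gi b * hi) = ζ'⁻¹ • 1 := by
        rw [← h4, smul_smul, inv_mul_cancel₀ h0, one_smul]
      calc h * gi b * hi = (gi b * g b) * (h * gi b * hi) := by rw [hgi', one_mul]
        _ = gi b * (g b * (h * gi b * hi)) := by rw [mul_assoc]
        _ = _ := by rw [h5, mul_smul_comm, mul_one]
    refine trace_eq_zero_of_scale (ζ := ζ * ζ'⁻¹) hh hh' ?_ ?_
    · calc h * (g a * gi b) * hi = (h * g a * hi) * (h * gi b * hi) := by
            calc h * (g a * gi b) * hi = h * g a * (hi * h) * gi b * hi := by
                  rw [hh', mul_one]; simp only [mul_assoc]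
              _ = _ := by simp only [mul_assoc]
        _ = _ := by
            rw [h1, h3, smul_mul_smul_comm]
    · intro h4
      apply hne
      have h5 : ζ * ζ'⁻¹ * ζ' = 1 * ζ' := by rw [h4]
      rw [mul_assoc, inv_mul_cancel₀ h0, mul_one, one_mul] at h5
      exact h5
  have hli : LinearIndependent ℂ g := by
    rw [Fintype.linearIndependent_iff]
    intro c hc b
    have h1 : ∑ a, c a • (g a * gi b) = 0 := by
      have : ∑ a, c a • (g a * gi b) = (∑ a, c a • g a) * gi b := by
        rw [Finset.sum_mul]
        simp only [smul_mul_assoc]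
      rw [this, hc, zero_mul]
    have h2 := congrArg (LinearMap.trace ℂ W) h1
    rw [map_sum, map_zero, Finset.sum_eq_single b] at h2
    · rw [map_smul, hgi, LinearMap.trace_one, smul_eq_mul] at h2
      have h3 : (Module.finrank ℂ W : ℂ) ≠ 0 := by
        have : 0 < Module.finrank ℂ W := Module.finrank_pos
        exact_mod_cast this.ne'
      exact (mul_eq_zero.mp h2).resolve_right h3
    · intro a _ hab
      rw [map_smul, htr a b hab, smul_zero]
    · simp
  have h1 := hli.fintype_card_le_finrank
  have h2 : Module.finrank ℂ (Module.End ℂ W) = Module.finrank ℂ W * Module.finrank ℂ W :=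
    Module.finrank_linearMap ℂ ℂ W W
  rw [h2] at h1
  rwa [pow_two]

end Cfsg.Agent.Lib.MinDeg.Heis
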