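import Mathlib
import Cfsg.Agent.Lib.Classical.Herm.Basic
import Cfsg.Agent.Lib.Classical.Herm.Isotropic
import Cfsg.Agent.Lib.Classical.Herm.Subfield
import Cfsg.Agent.Lib.Classical.Herm.Comm
import Cfsg.Agent.Lib.Linalg.Bridge

/-!
# Orbits of `SL_m(F)`, `|F| = q²`, on nonzero Hermitian matrices

`T ↦ C* T C`. Every orbit has at least `(q^{2m} - 1)/(q + 1)` elements (`m ≥ 2`).
-/

set_option autoImplicit false
set_option linter.unusedSectionVars false
set_option linter.unusedSimpArgs false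
set_option linter.unusedVariables false

namespace Cfsg.Agent.Lib.MinDeg.HermOrbit

open Matrix Cfsg.Agent.Lib.Classical.Herm.Basic
open Cfsg.Agent.Lib.Classical.Herm.Isotropic

variable {F : Type*} [Field F] [Fintype F] {q m : ℕ}

/-- Conjugate transpose. -/
def ct (q : ℕ) (M : Matrix (Fin m) (Fin m) F) : Matrix (Fin m) (Fin m) F :=
  Matrix.of fun i j => M j i ^ q

@[simp] theorem ct_apply (M : Matrix (Fin m) (Fin m) F) (i j : Fin m) : ct q M i j = M j i ^ q := rfl

theorem ct_eq (hF : Fintype.card F = q ^ 2) (M : Matrix (Fin m) (Fin m) F) :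
    ct q M = (M.map (sigma hF))ᵀ := by
  ext i j
  simp

theorem ct_mul (hF : Fintype.card F = q ^ 2) (A B : Matrix (Fin m) (Fin m) F) :
    ct q (A * B) = ct q B * ct q A := by
  rw [ct_eq hF, ct_eq hF, ct_eq hF, Matrix.map_mul, Matrix.transpose_mul]

theorem ct_ct (hF : Fintype.card F = q ^ 2) (A : Matrix (Fin m) (Fin m) F) : ct q (ct q A) = A := by
  ext i j
  simp [pow_q_pow_q hF]

theorem ct_add (hF : Fintype.card F = q ^ 2) (A B : Matrix (Fin m) (Fin m) F) :
    ct q (A + B) = ct q A + ct q B := by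
  ext i j
  simp [pow_q_add hF]

theorem ct_one (hF : Fintype.card F = q ^ 2) : ct q (1 : Matrix (Fin m) (Fin m) F) = 1 := by
  ext i j
  simp only [ct_apply, Matrix.one_apply]
  by_cases h : j = i
  · subst h
    simp
  · rw [if_neg h, if_neg (fun e => h e.symm), zero_pow_q hF]

theorem det_ct (hF : Fintype.card F = q ^ 2) (A : Matrix (Fin m) (Fin m) F) :
    (ct q A).det = A.det ^ q := by
  rw [ct_eq hF, Matrix.det_transpose, ← sigma_apply hF, RingHom.map_det]
  rfl

/-- `T` is Hermitian. -/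
def IsHer (q : ℕ) (T : Matrix (Fin m) (Fin m) F) : Prop := ct q T = T

/-- The sesquilinear form of `T`. -/
def Qf (q : ℕ) (T : Matrix (Fin m) (Fin m) F) (x y : Fin m → F) : F :=
  ∑ k, ∑ l, x k ^ q * T k l * y l

theorem Qf_add_right (T : Matrix (Fin m) (Fin m) F) (x y y' : Fin m → F) :
    Qf q T x (y + y') = Qf q T x y + Qf q T x y' := by
  simp only [Qf, Pi.add_apply, mul_add, Finset.sum_add_distrib]

theorem Qf_smul_right (T : Matrix (Fin m) (Fin m) F) (c : F) (x y : Fin m → F) :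
    Qf q T x (c • y) = c * Qf q T x y := by
  simp only [Qf, Pi.smul_apply, smul_eq_mul, Finset.mul_sum]
  refine Finset.sum_congr rfl fun k _ => Finset.sum_congr rfl fun l _ => ?_
  ring

theorem Qf_add_left (hF : Fintype.card F = q ^ 2) (T : Matrix (Fin m) (Fin m) F) (x x' y : Fin m → F) :
    Qf q T (x + x') y = Qf q T x y + Qf q T x' y := by
  simp only [Qf, Pi.add_apply, pow_q_add hF, add_mul, Finset.sum_add_distrib]

theorem Qf_smul_left (T : Matrix (Fin m) (Fin m) F) (c : F) (x y : Fin m → F) :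
    Qf q T (c • x) y = c ^ q * Qf q T x y := by
  simp only [Qf, Pi.smul_apply, smul_eq_mul, Finset.mul_sum, mul_pow]
  refine Finset.sum_congr rfl fun k _ => Finset.sum_congr rfl fun l _ => ?_
  ring

theorem Qf_zero_left (hF : Fintype.card F = q ^ 2) (T : Matrix (Fin m) (Fin m) F) (y : Fin m → F) :
    Qf q T 0 y = 0 := by
  simp [Qf, zero_pow_q hF]

theorem Qf_zero_right (T : Matrix (Fin m) (Fin m) F) (x : Fin m → F) :
    Qf q T x 0 = 0 := by
  simp [Qf]

theorem Qf_sub_right (T : Matrix (Fin m) (Fin m) F) (x y y' : Fin m → F) :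
    Qf q T x (y - y') = Qf q T x y - Qf q T x y' := by
  simp only [Qf, Pi.sub_apply, mul_sub, Finset.sum_sub_distrib]

theorem Qf_sub_left (hF : Fintype.card F = q ^ 2) (T : Matrix (Fin m) (Fin m) F) (x x' y : Fin m → F) :
    Qf q T (x - x') y = Qf q T x y - Qf q T x' y := by
  simp only [Qf, Pi.sub_apply, pow_q_sub hF, sub_mul, Finset.sum_sub_distrib]

theorem Qf_pow_q (hF : Fintype.card F = q ^ 2) {T : Matrix (Fin m) (Fin m) F} (hT : IsHer q T)
    (x y : Fin m → F) : (Qf q T x y) ^ q = Qf q T y x := by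
  simp only [Qf]
  rw [pow_q_sum hF]
  simp_rw [pow_q_sum hF]
  rw [Finset.sum_comm]
  refine Finset.sum_congr rfl fun k _ => Finset.sum_congr rfl fun l _ => ?_
  rw [mul_pow, mul_pow, pow_q_pow_q hF]
  have h : T l k ^ q = T k l := congrFun (congrFun hT k) l
  rw [h]
  ring

theorem Qf_single (T : Matrix (Fin m) (Fin m) F) (hq : q ≠ 0) (i j : Fin m) :
    Qf q T (Pi.single i 1) (Pi.single j 1) = T i j := by
  classical
  simp only [Qf]
  rw [Finset.sum_eq_single i, Finset.sum_eq_single j]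
  · simp
  · intro b _ hb
    simp [Pi.single_apply, hb]
  · simp
  · intro b _ hb
    simp [Pi.single_apply, hb, hq]
  · simp

theorem Qf_self_pow_q (hF : Fintype.card F = q ^ 2) {T : Matrix (Fin m) (Fin m) F} (hT : IsHer q T)
    (x : Fin m → F) : (Qf q T x x) ^ q = Qf q T x x := Qf_pow_q hF hT x x

/-- The transformed matrix in terms of the form. -/
theorem ct_mul_mul_apply (T C : Matrix (Fin m) (Fin m) F) (i j : Fin m) :
    (ct q C * T * C) i j = Qf q T (fun k => C k i) (fun l => C l j) := by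
  simp only [Qf, Matrix.mul_apply, ct_apply, Finset.sum_mul, Finset.mul_sum]
  rw [Finset.sum_comm]

theorem Qf_eq (T : Matrix (Fin m) (Fin m) F) (x y : Fin m → F) :
    Qf q T x y = (fun k => x k ^ q) ⬝ᵥ (T *ᵥ y) := by
  simp only [Qf, dotProduct, Matrix.mulVec, Finset.mul_sum]
  refine Finset.sum_congr rfl fun k _ => Finset.sum_congr rfl fun l _ => ?_
  ring

theorem cv_vecMul_ct (hF : Fintype.card F = q ^ 2) (C : Matrix (Fin m) (Fin m) F) (x : Fin m → F) :
    (fun k => x k ^ q) ᵥ* ct q C = fun k => (C *ᵥ x) k ^ q := by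
  funext j
  simp only [Matrix.vecMul, Matrix.mulVec, dotProduct, ct_apply]
  rw [pow_q_sum hF]
  refine Finset.sum_congr rfl fun k _ => ?_
  rw [mul_pow, mul_comm]

theorem Qf_transform (hF : Fintype.card F = q ^ 2) (T C : Matrix (Fin m) (Fin m) F) (x y : Fin m → F) :
    Qf q (ct q C * T * C) x y = Qf q T (C *ᵥ x) (C *ᵥ y) := by
  rw [Qf_eq, Qf_eq, ← Matrix.mulVec_mulVec, ← Matrix.mulVec_mulVec, Matrix.dotProduct_mulVec,
    cv_vecMul_ct hF]

theorem isHer_transform (hF : Fintype.card F = q ^ 2) {T : Matrix (Fin m) (Fin m) F} (hT : IsHer q T)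
    (C : Matrix (Fin m) (Fin m) F) : IsHer q (ct q C * T * C) := by
  unfold IsHer
  rw [ct_mul hF, ct_mul hF, ct_ct hF, hT, mul_assoc]

theorem eq_zero_of_Qf (hq : q ≠ 0) {T : Matrix (Fin m) (Fin m) F} (h : ∀ x y, Qf q T x y = 0) : T = 0 := by
  ext i j
  rw [← Qf_single T hq i j, h]
  rfl

/-- A nonzero Hermitian matrix has an anisotropic vector. -/
theorem exists_aniso (hF : Fintype.card F = q ^ 2) {T : Matrix (Fin m) (Fin m) F} (hT : IsHer q T)
    (hT0 : T ≠ 0) : ∃ x, Qf q T x x ≠ 0 := by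
  have hq0 : q ≠ 0 := by
    have := two_le_q hF
    omega
  by_contra hc
  push Not at hc
  apply hT0
  apply eq_zero_of_Qf hq0
  intro x y
  by_contra hne
  obtain ⟨μ, hμ⟩ := exists_trace_ne_zero hF
  set z := Qf q T x y with hz
  -- take `λ` with `λ^q * z = μ`
  obtain ⟨l, hl⟩ : ∃ l : F, l ^ q * z = μ := by
    refine ⟨(μ / z) ^ q, ?_⟩
    rw [pow_q_pow_q hF]
    field_simp
  have h1 := hc (l • x + y)
  rw [Qf_add_left hF, Qf_add_right, Qf_add_right, hc y, Qf_smul_left, Qf_smul_right, Qf_smul_left,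
    Qf_smul_right, hc x, ← hz] at h1
  have h2 : Qf q T y x = z ^ q := (Qf_pow_q hF hT x y).symm
  rw [h2] at h1
  apply hμ
  have h3 : μ ^ q = l * z ^ q := by
    rw [← hl, mul_pow, pow_q_pow_q hF]
  rw [h3, ← hl]
  linear_combination h1

/-- All nonzero fixed values are taken. -/
theorem exists_value (hF : Fintype.card F = q ^ 2) {T : Matrix (Fin m) (Fin m) F} (hT : IsHer q T)
    (hT0 : T ≠ 0) {c : F} (hc0 : c ≠ 0) (hc : c ^ q = c) : ∃ x, Qf q T x x = c := by
  obtain ⟨x, hx⟩ := exists_aniso hF hT hT0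
  have hxq := Qf_self_pow_q hF hT x
  obtain ⟨l, hl⟩ := exists_norm_eq hF (c / Qf q T x x) (div_ne_zero hc0 hx) (by
    rw [div_pow, hc, hxq])
  refine ⟨l • x, ?_⟩
  rw [Qf_smul_left, Qf_smul_right]
  have : l ^ q * (l * Qf q T x x) = l ^ (q + 1) * Qf q T x x := by ring
  rw [this, hl]
  field_simp

theorem sl_coe_mul (C D : SpecialLinearGroup (Fin m) F) :
    ((C * D : SpecialLinearGroup (Fin m) F) : Matrix (Fin m) (Fin m) F) =
      (C : Matrix (Fin m) (Fin m) F) * (D : Matrix (Fin m) (Fin m) F) := rfl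

theorem sl_coe_one : ((1 : SpecialLinearGroup (Fin m) F) : Matrix (Fin m) (Fin m) F) = 1 := rfl

/-- The orbit of `T` under `SL_m(F)`. -/
def Orb (q : ℕ) (T : Matrix (Fin m) (Fin m) F) : Set (Matrix (Fin m) (Fin m) F) :=
  Set.range (fun C : SpecialLinearGroup (Fin m) F =>
    ct q (C : Matrix (Fin m) (Fin m) F) * T * (C : Matrix (Fin m) (Fin m) F))

theorem self_mem_Orb (hF : Fintype.card F = q ^ 2) (T : Matrix (Fin m) (Fin m) F) : T ∈ Orb q T :=
  ⟨1, by simp [ct_one hF]⟩

theorem Orb_subset (hF : Fintype.card F = q ^ 2) {T T' : Matrix (Fin m) (Fin m) F} (h : T' ∈ Orb q T) :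
    Orb q T' ⊆ Orb q T := by
  obtain ⟨C, rfl⟩ := h
  rintro _ ⟨D, rfl⟩
  refine ⟨C * D, ?_⟩
  show ct q ((C : Matrix (Fin m) (Fin m) F) * (D : Matrix (Fin m) (Fin m) F)) * T *
    ((C : Matrix (Fin m) (Fin m) F) * (D : Matrix (Fin m) (Fin m) F)) = _
  rw [ct_mul hF]
  simp only [mul_assoc]

theorem isHer_of_mem_Orb (hF : Fintype.card F = q ^ 2) {T T' : Matrix (Fin m) (Fin m) F}
    (hT : IsHer q T) (h : T' ∈ Orb q T) : IsHer q T' := by
  obtain ⟨C, rfl⟩ := h
  exact isHer_transform hF hT _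

theorem ne_zero_of_mem_Orb (hF : Fintype.card F = q ^ 2) {T T' : Matrix (Fin m) (Fin m) F}
    (hT0 : T ≠ 0) (h : T' ∈ Orb q T) : T' ≠ 0 := by
  obtain ⟨C, rfl⟩ := h
  intro h0
  have h0' : ct q (C : Matrix (Fin m) (Fin m) F) * T * (C : Matrix (Fin m) (Fin m) F) = 0 := h0
  apply hT0
  have h2 : (C : Matrix (Fin m) (Fin m) F) * ((C⁻¹ : SpecialLinearGroup (Fin m) F) : Matrix (Fin m) (Fin m) F) = 1 := by
    have h3 : ((C * C⁻¹ : SpecialLinearGroup (Fin m) F) : Matrix (Fin m) (Fin m) F) =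
      ((1 : SpecialLinearGroup (Fin m) F) : Matrix (Fin m) (Fin m) F) := by rw [mul_inv_cancel]
    exact h3
  have h1 : ct q ((C⁻¹ : SpecialLinearGroup (Fin m) F) : Matrix (Fin m) (Fin m) F) *
      (ct q (C : Matrix (Fin m) (Fin m) F) * T * (C : Matrix (Fin m) (Fin m) F)) *
      ((C⁻¹ : SpecialLinearGroup (Fin m) F) : Matrix (Fin m) (Fin m) F) = T := by
    calc _ = ct q ((C : Matrix (Fin m) (Fin m) F) * ((C⁻¹ : SpecialLinearGroup (Fin m) F) : Matrix (Fin m) (Fin m) F)) * T *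
          ((C : Matrix (Fin m) (Fin m) F) * ((C⁻¹ : SpecialLinearGroup (Fin m) F) : Matrix (Fin m) (Fin m) F)) := by
          rw [ct_mul hF]
          simp only [mul_assoc]
      _ = T := by rw [h2, ct_one hF]; simp
  rw [← h1, h0']
  simp

variable {k : ℕ}

/-- The first row. -/
def firstRow (M : Matrix (Fin (k + 1)) (Fin (k + 1)) F) : F × (Fin k → F) :=
  (M 0 0, fun j => M 0 j.succ)

/-- `SL` is transitive on first columns: a vector `x ≠ 0` gives a matrix in the orbit whose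
`(0, j)`-entries are `Qf x (C e_j)`. -/
theorem exists_mem_Orb_first (hk : 1 ≤ k) (hF : Fintype.card F = q ^ 2)
    (T : Matrix (Fin (k + 1)) (Fin (k + 1)) F) {x : Fin (k + 1) → F} (hx : x ≠ 0) :
    ∃ C : SpecialLinearGroup (Fin (k + 1)) F, (C : Matrix (Fin (k + 1)) (Fin (k + 1)) F) *ᵥ Pi.single 0 1 = x := by
  obtain ⟨g, hg⟩ := Cfsg.Agent.Lib.Linalg.Bridge.exists_SL_mulVec_eq
    (ι := Fin (k + 1)) (F := F) (by simp; omega) (v := Pi.single 0 1) (v' := x)
    (by
      intro h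
      have := congrFun h 0
      simp at this) hx
  exact ⟨g, hg⟩

theorem transform_apply (hF : Fintype.card F = q ^ 2) (T C : Matrix (Fin (k + 1)) (Fin (k + 1)) F)
    (i j : Fin (k + 1)) :
    (ct q C * T * C) i j = Qf q T (C *ᵥ Pi.single i 1) (C *ᵥ Pi.single j 1) := by
  classical
  have hq0 : q ≠ 0 := by
    have := two_le_q hF
    omega
  rw [← Qf_transform hF, Qf_single _ hq0]

/-- Clearing the first row when the corner is nonzero. -/
theorem exists_first_row (hF : Fintype.card F = q ^ 2) (T : Matrix (Fin (k + 1)) (Fin (k + 1)) F)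
    (hc : T 0 0 ≠ 0) (t : Fin k → F) :
    ∃ T' ∈ Orb q T, firstRow T' = (T 0 0, t) := by
  classical
  have hq0 : q ≠ 0 := by
    have := two_le_q hF
    omega
  let β : Fin (k + 1) → F := Fin.cons 0 (fun j => (t j - T 0 j.succ) / T 0 0)
  let e₀ : Fin (k + 1) → F := Pi.single 0 1
  have hβ0 : β ⬝ᵥ e₀ = 0 := by
    simp [β, e₀]
  let N : Matrix (Fin (k + 1)) (Fin (k + 1)) F := Matrix.vecMulVec e₀ β
  have hNmul : ∀ x, N *ᵥ x = (β ⬝ᵥ x) • e₀ := by
    intro x
    funext i
    simp only [N, Matrix.vecMulVec_apply, Matrix.mulVec, dotProduct, Pi.smul_apply, smul_eq_mul,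
      Finset.sum_mul, Finset.mul_sum]
    refine Finset.sum_congr rfl fun l _ => ?_
    ring
  have hN2 : N * N = 0 := by
    apply Matrix.toLin'.injective
    ext x
    simp only [Matrix.toLin'_mul, LinearMap.coe_comp, Function.comp_apply, Matrix.toLin'_apply,
      map_zero, LinearMap.zero_apply, LinearMap.coe_single, hNmul]
    simp [hNmul, dotProduct_smul, hβ0]
  have hdet : (1 + N).det = 1 :=
    Cfsg.Agent.Lib.Classical.Herm.Comm.det_one_add_of_nilpotent N ⟨2, by rw [pow_two, hN2]⟩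
  let C : SpecialLinearGroup (Fin (k + 1)) F := ⟨1 + N, hdet⟩
  have hC : ∀ x, (C : Matrix (Fin (k + 1)) (Fin (k + 1)) F) *ᵥ x = x + (β ⬝ᵥ x) • e₀ := by
    intro x
    show (1 + N) *ᵥ x = _
    rw [Matrix.add_mulVec, Matrix.one_mulVec, hNmul]
  refine ⟨_, ⟨C, rfl⟩, ?_⟩
  have h00 : (ct q (C : Matrix (Fin (k + 1)) (Fin (k + 1)) F) * T * (C : Matrix (Fin (k + 1)) (Fin (k + 1)) F)) 0 0 = T 0 0 := by
    rw [transform_apply hF, hC, hβ0, zero_smul, add_zero, Qf_single _ hq0]
  have h0j : ∀ j : Fin k, (ct q (C : Matrix (Fin (k + 1)) (Fin (k + 1)) F) * T * (C : Matrix (Fin (k + 1)) (Fin (k + 1)) F)) 0 j.succ = t j := by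
    intro j
    rw [transform_apply hF, hC, hC, hβ0, zero_smul, add_zero, Qf_add_right, Qf_smul_right,
      Qf_single _ hq0, Qf_single _ hq0]
    have hb : β ⬝ᵥ Pi.single j.succ 1 = (t j - T 0 j.succ) / T 0 0 := by
      simp [β]
    rw [hb]
    field_simp
    ring
  simp only [firstRow]
  rw [h00]
  congr 1
  funext j
  exact h0j j

theorem Qf_single_left (hF : Fintype.card F = q ^ 2) (T : Matrix (Fin m) (Fin m) F) (i : Fin m)
    (y : Fin m → F) : Qf q T (Pi.single i 1) y = ∑ l, T i l * y l := by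
  classical
  have hq0 : q ≠ 0 := by
    have := two_le_q hF
    omega
  simp only [Qf]
  rw [Finset.sum_eq_single i]
  · simp
  · intro b _ hb
    simp [Pi.single_apply, hb, hq0]
  · simp

/-- An anisotropic value `c` gives a matrix of the orbit with corner `c`. -/
theorem exists_mem_Orb_corner (hk : 1 ≤ k) (hF : Fintype.card F = q ^ 2)
    (T : Matrix (Fin (k + 1)) (Fin (k + 1)) F) {x : Fin (k + 1) → F} (hx : x ≠ 0) :
    ∃ T' ∈ Orb q T, T' 0 0 = Qf q T x x := by
  classical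
  obtain ⟨C, hC⟩ := exists_mem_Orb_first hk hF T hx
  refine ⟨_, ⟨C, rfl⟩, ?_⟩
  show (ct q (C : Matrix (Fin (k + 1)) (Fin (k + 1)) F) * T * (C : Matrix (Fin (k + 1)) (Fin (k + 1)) F)) 0 0 = _
  rw [transform_apply hF, hC]

/-- An isotropic non-radical vector gives a matrix of the orbit with zero corner and nonzero first
row. -/
theorem exists_mem_Orb_iso (hk : 1 ≤ k) (hF : Fintype.card F = q ^ 2)
    (T : Matrix (Fin (k + 1)) (Fin (k + 1)) F) {x y : Fin (k + 1) → F} (hxx : Qf q T x x = 0)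
    (hxy : Qf q T x y ≠ 0) :
    ∃ T' ∈ Orb q T, T' 0 0 = 0 ∧ (fun j : Fin k => T' 0 j.succ) ≠ 0 := by
  classical
  have hx : x ≠ 0 := by
    rintro rfl
    exact hxy (Qf_zero_left hF T y)
  obtain ⟨C, hC⟩ := exists_mem_Orb_first hk hF T hx
  refine ⟨_, ⟨C, rfl⟩, ?_, ?_⟩
  · show (ct q (C : Matrix (Fin (k + 1)) (Fin (k + 1)) F) * T * (C : Matrix (Fin (k + 1)) (Fin (k + 1)) F)) 0 0 = 0
    rw [transform_apply hF, hC, hxx]
  · intro h0
    have h00 : (ct q (C : Matrix (Fin (k + 1)) (Fin (k + 1)) F) * T * (C : Matrix (Fin (k + 1)) (Fin (k + 1)) F)) 0 0 = 0 := by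
      rw [transform_apply hF, hC, hxx]
    have h0j : ∀ j : Fin k, (ct q (C : Matrix (Fin (k + 1)) (Fin (k + 1)) F) * T * (C : Matrix (Fin (k + 1)) (Fin (k + 1)) F)) 0 j.succ = 0 :=
      fun j => congrFun h0 j
    -- so the form of `T'` at `e₀` vanishes
    have hall : ∀ z, Qf q (ct q (C : Matrix (Fin (k + 1)) (Fin (k + 1)) F) * T * (C : Matrix (Fin (k + 1)) (Fin (k + 1)) F)) (Pi.single 0 1) z = 0 := by
      intro z
      rw [Qf_single_left hF, Fin.sum_univ_succ, h00]
      simp [h0j]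
    -- `y = C (C⁻¹ y)`
    have hy : (C : Matrix (Fin (k + 1)) (Fin (k + 1)) F) *ᵥ (((C⁻¹ : SpecialLinearGroup (Fin (k + 1)) F) : Matrix (Fin (k + 1)) (Fin (k + 1)) F) *ᵥ y) = y := by
      rw [Matrix.mulVec_mulVec]
      have h3 : ((C * C⁻¹ : SpecialLinearGroup (Fin (k + 1)) F) : Matrix (Fin (k + 1)) (Fin (k + 1)) F) =
          ((1 : SpecialLinearGroup (Fin (k + 1)) F) : Matrix (Fin (k + 1)) (Fin (k + 1)) F) := by rw [mul_inv_cancel]
      have h4 : (C : Matrix (Fin (k + 1)) (Fin (k + 1)) F) * ((C⁻¹ : SpecialLinearGroup (Fin (k + 1)) F) : Matrix (Fin (k + 1)) (Fin (k + 1)) F) = 1 := h3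
      rw [h4, Matrix.one_mulVec]
    apply hxy
    have h5 := hall (((C⁻¹ : SpecialLinearGroup (Fin (k + 1)) F) : Matrix (Fin (k + 1)) (Fin (k + 1)) F) *ᵥ y)
    rw [Qf_transform hF, hC, hy] at h5
    exact h5

/-- Moving the first row by `SL_k`. -/
theorem exists_move_row (hk : 2 ≤ k) (hF : Fintype.card F = q ^ 2)
    (T : Matrix (Fin (k + 1)) (Fin (k + 1)) F) (h00 : T 0 0 = 0)
    (ha : (fun j : Fin k => T 0 j.succ) ≠ 0) {t : Fin k → F} (ht : t ≠ 0) :
    ∃ T' ∈ Orb q T, firstRow T' = (0, t) := by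
  classical
  have hq0 : q ≠ 0 := by
    have := two_le_q hF
    omega
  obtain ⟨g, hg⟩ := Cfsg.Agent.Lib.Linalg.Bridge.exists_SL_mulVec_eq
    (ι := Fin k) (F := F) (by simpa using hk) ha ht
  let D : Matrix (Fin k) (Fin k) F := (g : Matrix (Fin k) (Fin k) F)ᵀ
  have hDdet : D.det = 1 := by
    rw [Matrix.det_transpose]
    exact g.2
  let C : SpecialLinearGroup (Fin (k + 1)) F :=
    ⟨Cfsg.Agent.Lib.Classical.Herm.Gen.iotaMat D, by
      rw [Cfsg.Agent.Lib.Classical.Herm.Gen.det_iotaMat, hDdet]⟩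
  have hCv : ∀ (a : F) (x : Fin k → F), (C : Matrix (Fin (k + 1)) (Fin (k + 1)) F) *ᵥ (Fin.cons a x) = Fin.cons a (D *ᵥ x) :=
    fun a x => Cfsg.Agent.Lib.Classical.Herm.Gen.iotaMat_mulVec D a x
  have he0 : (Pi.single 0 1 : Fin (k + 1) → F) = Fin.cons 1 0 := by
    funext i
    refine Fin.cases ?_ (fun j => ?_) i
    · simp
    · simp [Pi.single_apply, Fin.succ_ne_zero]
  have hes : ∀ j : Fin k, (Pi.single j.succ 1 : Fin (k + 1) → F) = Fin.cons 0 (Pi.single j 1) := by
    intro j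
    funext i
    refine Fin.cases ?_ (fun l => ?_) i
    · simp [Pi.single_apply, (Fin.succ_ne_zero j).symm]
    · simp [Pi.single_apply]
  have hCe0 : (C : Matrix (Fin (k + 1)) (Fin (k + 1)) F) *ᵥ (Pi.single 0 1) = Pi.single 0 1 := by
    rw [he0, hCv, Matrix.mulVec_zero]
  refine ⟨_, ⟨C, rfl⟩, ?_⟩
  show firstRow (ct q (C : Matrix (Fin (k + 1)) (Fin (k + 1)) F) * T * (C : Matrix (Fin (k + 1)) (Fin (k + 1)) F)) = _
  simp only [firstRow]
  congr 1
  · rw [transform_apply hF, hCe0, Qf_single _ hq0, h00]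
  · funext j
    rw [transform_apply hF, hCe0, hes, hCv, Qf_single_left hF, Fin.sum_univ_succ]
    simp only [Fin.cons_zero, mul_zero, zero_add, Fin.cons_succ]
    -- `∑ l, T 0 l.succ * (D e_j) l = t j`
    have h1 : t j = (g : Matrix (Fin k) (Fin k) F).mulVec (fun l => T 0 l.succ) j := by rw [hg]
    rw [h1]
    simp only [D, Matrix.mulVec, dotProduct, Matrix.transpose_apply, Pi.single_apply, mul_ite, mul_one,
      mul_zero, Finset.sum_ite_eq', Finset.mem_univ, if_true]
    refine Finset.sum_congr rfl fun l _ => ?_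
    rw [mul_comm]

/-- The case `m = 2`: moving the first row by a diagonal matrix. -/
theorem exists_move_row_one (hF : Fintype.card F = q ^ 2)
    (T : Matrix (Fin (1 + 1)) (Fin (1 + 1)) F) (h00 : T 0 0 = 0) {l : F} (hl : l ≠ 0) :
    ∃ T' ∈ Orb q T, firstRow T' = (0, fun _ => l ^ q * l⁻¹ * T 0 1) := by
  classical
  have hq0 : q ≠ 0 := by
    have := two_le_q hF
    omega
  let d : Fin (1 + 1) → F := ![l, l⁻¹]
  let C : SpecialLinearGroup (Fin (1 + 1)) F := ⟨Matrix.diagonal d, by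
    rw [Matrix.det_diagonal, Fin.prod_univ_two]
    simp [d, hl]⟩
  have h0 : (C : Matrix (Fin (1 + 1)) (Fin (1 + 1)) F) *ᵥ Pi.single 0 1 = l • Pi.single 0 1 := by
    funext i
    show (Matrix.diagonal d *ᵥ Pi.single 0 1) i = _
    rw [Matrix.mulVec_diagonal]
    fin_cases i <;> simp [d]
  have h1 : (C : Matrix (Fin (1 + 1)) (Fin (1 + 1)) F) *ᵥ Pi.single 1 1 = l⁻¹ • Pi.single 1 1 := by
    funext i
    show (Matrix.diagonal d *ᵥ Pi.single 1 1) i = _
    rw [Matrix.mulVec_diagonal]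
    fin_cases i <;> simp [d]
  refine ⟨_, ⟨C, rfl⟩, ?_⟩
  show firstRow (ct q (C : Matrix (Fin (1 + 1)) (Fin (1 + 1)) F) * T * (C : Matrix (Fin (1 + 1)) (Fin (1 + 1)) F)) = _
  simp only [firstRow]
  congr 1
  · rw [transform_apply hF, h0, Qf_smul_left, Qf_smul_right, Qf_single _ hq0, h00]
    simp
  · funext j
    have hj : j.succ = (1 : Fin (1 + 1)) := by
      fin_cases j
      rfl
    rw [hj, transform_apply hF, h0, h1, Qf_smul_left, Qf_smul_right, Qf_single _ hq0]
    ring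

/-- The number of values of `l^q l⁻¹`. -/
theorem card_image_pow (hF : Fintype.card F = q ^ 2) {a : F} (ha : a ≠ 0) :
    q - 1 ≤ (Set.range (fun l : {l : F // l ≠ 0} => l.1 ^ q * l.1⁻¹ * a)).ncard := by
  classical
  have hq2 := two_le_q hF
  let f : F → F := fun l => l ^ q * l⁻¹ * a
  let s : Finset F := Finset.univ.filter (· ≠ 0)
  have hs : s.card = q ^ 2 - 1 := by
    have : s = Finset.univ.erase (0 : F) := by
      ext x
      simp [s]
    rw [this, Finset.card_erase_of_mem (Finset.mem_univ _), Finset.card_univ, hF]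
  have hfib : ∀ b ∈ s.image f, (s.filter fun x => f x = b).card ≤ q - 1 := by
    intro b hb
    obtain ⟨l₀, hl₀, rfl⟩ := Finset.mem_image.mp hb
    have hl₀0 : l₀ ≠ 0 := by simpa [s] using hl₀
    have hsub : (s.filter fun x => f x = f l₀) ⊆
        ((Polynomial.nthRoots (q - 1) (1 : F)).toFinset).image (fun z => z * l₀) := by
      intro x hx
      obtain ⟨hx0, hxf⟩ := Finset.mem_filter.mp hx
      have hx0' : x ≠ 0 := by simpa [s] using hx0
      have h1 : x ^ q * x⁻¹ = l₀ ^ q * l₀⁻¹ := mul_right_cancel₀ ha hxf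
      have hqe : q = q - 1 + 1 := by omega
      have h2 : x ^ (q - 1) = l₀ ^ (q - 1) := by
        have e1 : x ^ q * x⁻¹ = x ^ (q - 1) := by
          conv_lhs => rw [hqe, pow_succ]
          field_simp
        have e2 : l₀ ^ q * l₀⁻¹ = l₀ ^ (q - 1) := by
          conv_lhs => rw [hqe, pow_succ]
          field_simp
        rw [← e1, ← e2, h1]
      refine Finset.mem_image.mpr ⟨x / l₀, ?_, by field_simp⟩
      rw [Multiset.mem_toFinset, Polynomial.mem_nthRoots (by omega), div_pow, h2]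
      exact div_self (pow_ne_zero _ hl₀0)
    refine (Finset.card_le_card hsub).trans (Finset.card_image_le.trans ?_)
    exact (Multiset.toFinset_card_le _).trans (Polynomial.card_nthRoots _ _)
  have hmain := Finset.card_le_mul_card_image (f := f) s (q - 1) hfib
  have hsubset : ((s.image f : Finset F) : Set F) ⊆ Set.range (fun l : {l : F // l ≠ 0} => l.1 ^ q * l.1⁻¹ * a) := by
    intro b hb
    obtain ⟨l₀, hl₀, rfl⟩ := Finset.mem_image.mp hb
    have hl₀0 : l₀ ≠ 0 := by simpa [s] using hl₀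
    exact ⟨⟨l₀, hl₀0⟩, rfl⟩
  have hle := Set.ncard_le_ncard hsubset (Set.toFinite _)
  rw [Set.ncard_coe_finset] at hle
  rw [hs] at hmain
  -- `q² - 1 ≤ (q-1) * N` gives `q + 1 ≤ N`, so `q - 1 ≤ N`.
  have h3 : (q - 1) * (q - 1) ≤ (q - 1) * (s.image f).card := by
    refine le_trans ?_ hmain
    obtain ⟨p, rfl⟩ : ∃ p, q = p + 1 := ⟨q - 1, by omega⟩
    simp only [Nat.add_sub_cancel]
    have : (p + 1) ^ 2 - 1 = p * p + 2 * p := by
      have : (p + 1) ^ 2 = p * p + 2 * p + 1 := by ring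
      omega
    omega
  have h4 : q - 1 ≤ (s.image f).card := Nat.le_of_mul_le_mul_left h3 (by omega)
  omega

/-- Arithmetic. -/
theorem arith_final {q Q U : ℕ} (hq : 2 ≤ q) (hU : Q - 1 ≤ (q + 1) * U) :
    q ^ 2 * Q - 1 ≤ (q + 1) * ((q - 1) * Q + U) := by
  obtain ⟨p, rfl⟩ : ∃ p, q = p + 1 := ⟨q - 1, by omega⟩
  simp only [Nat.add_sub_cancel]
  have h1 : (p + 1 + 1) * (p * Q + U) = (p + 1 + 1) * p * Q + (p + 1 + 1) * U := by ring
  have h2 : (p + 1) ^ 2 * Q = (p + 1 + 1) * p * Q + Q := by ring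
  rw [h1, h2]
  omega

/-- **The generic case:** an isotropic non-radical vector exists. -/
theorem card_Orb_of_iso (hk : 1 ≤ k) (hF : Fintype.card F = q ^ 2)
    {T : Matrix (Fin (k + 1)) (Fin (k + 1)) F} (hT : IsHer q T) (hT0 : T ≠ 0)
    {x y : Fin (k + 1) → F} (hxx : Qf q T x x = 0) (hxy : Qf q T x y ≠ 0) :
    (q ^ 2) ^ (k + 1) - 1 ≤ (q + 1) * (Orb q T).ncard := by
  classical
  have hq2 := two_le_q hF
  -- the nonzero fixed values
  let A₁ : Finset F := Finset.univ.filter (fun c => c ^ q = c ∧ c ≠ 0)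
  have hA₁ : A₁.card = q - 1 := by
    have h1 := Cfsg.Agent.Lib.Classical.Herm.Subfield.card_fixed hF
    rw [Nat.card_eq_fintype_card, Fintype.card_subtype] at h1
    have h2 : A₁ = (Finset.univ.filter (fun c : F => c ^ q = c)).erase 0 := by
      ext c
      simp only [A₁, Finset.mem_filter, Finset.mem_univ, true_and, Finset.mem_erase]
      tauto
    rw [h2, Finset.card_erase_of_mem, h1]
    simp [zero_pow_q hF]
  -- the first rows reached
  have hcorner : ∀ c ∈ A₁, ∀ t : Fin k → F, (c, t) ∈ firstRow '' Orb q T := by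
    intro c hc t
    obtain ⟨hcq, hc0⟩ := (Finset.mem_filter.mp hc).2
    obtain ⟨z, hz⟩ := exists_value hF hT hT0 hc0 hcq
    have hz0 : z ≠ 0 := by
      rintro rfl
      rw [Qf_zero_left hF] at hz
      exact hc0 hz.symm
    obtain ⟨T₁, hT₁, hT₁c⟩ := exists_mem_Orb_corner hk hF T hz0
    rw [hz] at hT₁c
    obtain ⟨T₂, hT₂, hT₂r⟩ := exists_first_row hF T₁ (by rw [hT₁c]; exact hc0) t
    rw [hT₁c] at hT₂r
    exact ⟨T₂, Orb_subset hF hT₁ hT₂, hT₂r⟩
  obtain ⟨T₁, hT₁, hT₁0, hT₁a⟩ := exists_mem_Orb_iso hk hF T hxx hxy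
  -- the second family of first rows
  obtain ⟨U, hUmem, hUcard⟩ : ∃ U : Finset (Fin k → F), (∀ t ∈ U, ((0 : F), t) ∈ firstRow '' Orb q T) ∧
      (q ^ 2) ^ k - 1 ≤ (q + 1) * U.card := by
    rcases Nat.lt_or_ge k 2 with hk2 | hk2
    · -- `k = 1`
      obtain rfl : k = 1 := by omega
      have ha : T₁ 0 1 ≠ 0 := by
        intro h
        apply hT₁a
        funext j
        have hj : j.succ = (1 : Fin (1 + 1)) := by
          fin_cases j
          rfl
        rw [hj, h]
        rfl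
      have hfin := card_image_pow hF ha
      set R := Set.range (fun l : {l : F // l ≠ 0} => l.1 ^ q * l.1⁻¹ * T₁ 0 1) with hR
      have hRf : R.Finite := Set.toFinite _
      refine ⟨hRf.toFinset.image (fun b => fun _ : Fin 1 => b), ?_, ?_⟩
      · intro t ht
        obtain ⟨b, hb, rfl⟩ := Finset.mem_image.mp ht
        obtain ⟨⟨l, hl⟩, rfl⟩ := hRf.mem_toFinset.mp hb
        obtain ⟨T₂, hT₂, hT₂r⟩ := exists_move_row_one hF T₁ hT₁0 hl
        exact ⟨T₂, Orb_subset hF hT₁ hT₂, hT₂r⟩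
      · rw [Finset.card_image_of_injective]
        · rw [← Set.ncard_eq_toFinset_card R hRf]
          rw [pow_one]
          obtain ⟨p, rfl⟩ : ∃ p, q = p + 1 := ⟨q - 1, by omega⟩
          simp only [Nat.add_sub_cancel] at hfin
          have h1 : (p + 1) ^ 2 - 1 ≤ (p + 1 + 1) * p := by
            have : (p + 1) ^ 2 = (p + 1 + 1) * p + 1 := by ring
            omega
          exact h1.trans (Nat.mul_le_mul_left _ hfin)
        · intro b b' h
          exact congrFun h 0
    · -- `k ≥ 2`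
      refine ⟨Finset.univ.erase 0, ?_, ?_⟩
      · intro t ht
        have ht0 : t ≠ 0 := (Finset.mem_erase.mp ht).1
        obtain ⟨T₂, hT₂, hT₂r⟩ := exists_move_row hk2 hF T₁ hT₁0 hT₁a ht0
        exact ⟨T₂, Orb_subset hF hT₁ hT₂, hT₂r⟩
      · rw [Finset.card_erase_of_mem (Finset.mem_univ _), Finset.card_univ, Fintype.card_fun, hF,
          Fintype.card_fin]
        exact Nat.le_mul_of_pos_left _ (by omega)
  -- assembling
  let S : Finset (F × (Fin k → F)) := A₁ ×ˢ Finset.univ ∪ ({(0 : F)} : Finset F) ×ˢ U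
  have hdisj : Disjoint (A₁ ×ˢ (Finset.univ : Finset (Fin k → F))) (({(0 : F)} : Finset F) ×ˢ U) := by
    rw [Finset.disjoint_left]
    rintro ⟨c, t⟩ h1 h2
    have h3 : c ∈ A₁ := (Finset.mem_product.mp h1).1
    have h4 : c = 0 := by simpa using (Finset.mem_product.mp h2).1
    exact (Finset.mem_filter.mp h3).2.2 h4
  have hScard : S.card = (q - 1) * (q ^ 2) ^ k + U.card := by
    rw [Finset.card_union_of_disjoint hdisj, Finset.card_product, Finset.card_product, hA₁, Finset.card_univ,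
      Fintype.card_fun, hF, Fintype.card_fin]
    simp
  have hSsub : (S : Set (F × (Fin k → F))) ⊆ firstRow '' Orb q T := by
    rintro ⟨c, t⟩ h
    rcases Finset.mem_union.mp (Finset.mem_coe.mp h) with h | h
    · exact hcorner c (Finset.mem_product.mp h).1 t
    · have h4 : c = 0 := by simpa using (Finset.mem_product.mp h).1
      rw [h4]
      exact hUmem t (Finset.mem_product.mp h).2
  have hle : S.card ≤ (Orb q T).ncard := by
    have h1 := Set.ncard_le_ncard hSsub (Set.toFinite _)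
    rw [Set.ncard_coe_finset] at h1
    exact h1.trans (Set.ncard_image_le (Set.toFinite _))
  have hfinal := arith_final (q := q) (Q := (q ^ 2) ^ k) (U := U.card) hq2 hUcard
  rw [← hScard] at hfinal
  have hpow : (q ^ 2) ^ (k + 1) = q ^ 2 * (q ^ 2) ^ k := by ring
  rw [hpow]
  exact hfinal.trans (Nat.mul_le_mul_left _ hle)

theorem rank_one_transform (hF : Fintype.card F = q ^ 2) (G T : Matrix (Fin (k + 1)) (Fin (k + 1)) F)
    (κ : F) (w v : Fin (k + 1) → F) (hG : G *ᵥ w = v) (hT : ∀ i j, T i j = κ * w i * w j ^ q)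
    (i j : Fin (k + 1)) : (G * T * ct q G) i j = κ * v i * v j ^ q := by
  simp only [Matrix.mul_apply, ct_apply]
  rw [← hG]
  simp only [Matrix.mulVec, dotProduct]
  rw [pow_q_sum hF]
  simp_rw [mul_pow, hT]
  simp only [Finset.sum_mul, Finset.mul_sum]
  refine Finset.sum_congr rfl fun a _ => Finset.sum_congr rfl fun b _ => ?_
  ring

/-- **The rank one case.** -/
theorem card_Orb_of_rank_one (hk : 1 ≤ k) (hF : Fintype.card F = q ^ 2)
    {T : Matrix (Fin (k + 1)) (Fin (k + 1)) F} (hT : IsHer q T) (hT0 : T ≠ 0)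
    (h1 : ∀ x, Qf q T x x = 0 → ∀ y, Qf q T x y = 0) :
    (q ^ 2) ^ (k + 1) - 1 ≤ (q + 1) * (Orb q T).ncard := by
  classical
  have hq2 := two_le_q hF
  have hq0 : q ≠ 0 := by omega
  obtain ⟨x₀, hx₀⟩ := exists_aniso hF hT hT0
  set c := Qf q T x₀ x₀ with hc
  have hcq : c ^ q = c := Qf_self_pow_q hF hT x₀
  let w : Fin (k + 1) → F := fun i => Qf q T (Pi.single i 1) x₀
  let κ : F := c⁻¹
  have hκ0 : κ ≠ 0 := inv_ne_zero hx₀
  have hκq : κ ^ q = κ := by
    simp only [κ]
    rw [inv_pow, hcq]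
  -- `T i j = κ w_i (w_j)^q`
  have hTform : ∀ i j, T i j = κ * w i * w j ^ q := by
    intro i j
    have hwq : w j ^ q = Qf q T x₀ (Pi.single j 1) := Qf_pow_q hF hT _ _
    rw [hwq]
    -- project `e_i` away from `x₀`
    set e : Fin (k + 1) → F := Pi.single i 1 with he
    set α : F := Qf q T x₀ e / c with hα
    set y₀ : Fin (k + 1) → F := e - α • x₀ with hy₀
    have hxy₀ : Qf q T x₀ y₀ = 0 := by
      rw [hy₀, Qf_sub_right, Qf_smul_right, hα]
      field_simp
      ring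
    have hy₀x : Qf q T y₀ x₀ = 0 := by
      rw [← Qf_pow_q hF hT x₀ y₀, hxy₀, zero_pow_q hF]
    have hy₀y₀ : Qf q T y₀ y₀ = 0 := by
      by_contra hne
      have hyq : (Qf q T y₀ y₀) ^ q = Qf q T y₀ y₀ := Qf_self_pow_q hF hT y₀
      obtain ⟨l, hl⟩ := exists_norm_eq hF (-(Qf q T y₀ y₀) / c)
        (div_ne_zero (neg_ne_zero.mpr hne) hx₀) (by
          rw [div_pow, hcq, pow_q_neg hF, hyq])
      have hl0 : l ≠ 0 := by
        rintro rfl
        rw [zero_pow (by omega)] at hl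
        exact (div_ne_zero (neg_ne_zero.mpr hne) hx₀) hl.symm
      have hz : Qf q T (l • x₀ + y₀) (l • x₀ + y₀) = 0 := by
        rw [Qf_add_left hF, Qf_add_right, Qf_add_right, Qf_smul_left, Qf_smul_right, Qf_smul_left,
          Qf_smul_right, hy₀x, hxy₀, ← hc]
        have : l ^ q * (l * c) = l ^ (q + 1) * c := by ring
        rw [this, hl]
        field_simp
        ring
      have h2 := h1 _ hz x₀
      rw [Qf_add_left hF, Qf_smul_left, hy₀x, ← hc, add_zero] at h2
      have hlq : l ^ q ≠ 0 := pow_ne_zero _ hl0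
      exact (mul_ne_zero hlq hx₀) h2
    have hrad := h1 y₀ hy₀y₀
    have hsplit : e = y₀ + α • x₀ := by rw [hy₀]; abel
    have h3 : T i j = Qf q T e (Pi.single j 1) := (Qf_single T hq0 i j).symm
    rw [h3, hsplit, Qf_add_left hF, hrad, zero_add, Qf_smul_left]
    have h4 : α ^ q = κ * w i := by
      simp only [α, κ, w]
      rw [div_pow, hcq]
      have h5 : (Qf q T x₀ e) ^ q = Qf q T e x₀ := Qf_pow_q hF hT _ _
      rw [h5]
      field_simp
      rfl
    rw [h4]
  have hw0 : w ≠ 0 := by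
    intro h
    apply hT0
    ext i j
    rw [hTform]
    have : w i = 0 := congrFun h i
    simp [this]
  -- the rank one matrices
  let M : (Fin (k + 1) → F) → Matrix (Fin (k + 1)) (Fin (k + 1)) F :=
    fun v => Matrix.of fun i j => κ * v i * v j ^ q
  have hMmem : ∀ v, v ≠ 0 → M v ∈ Orb q T := by
    intro v hv
    obtain ⟨g, hg⟩ := Cfsg.Agent.Lib.Linalg.Bridge.exists_SL_mulVec_eq
      (ι := Fin (k + 1)) (F := F) (by simp; omega) hw0 hv
    let C : SpecialLinearGroup (Fin (k + 1)) F := ⟨ct q (g : Matrix (Fin (k + 1)) (Fin (k + 1)) F), by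
      rw [det_ct hF]
      have : (g : Matrix (Fin (k + 1)) (Fin (k + 1)) F).det = 1 := g.2
      rw [this, one_pow]⟩
    refine ⟨C, ?_⟩
    show ct q (ct q (g : Matrix (Fin (k + 1)) (Fin (k + 1)) F)) * T * ct q (g : Matrix (Fin (k + 1)) (Fin (k + 1)) F) = M v
    rw [ct_ct hF]
    ext i j
    exact rank_one_transform hF _ T κ w v hg hTform i j
  -- counting
  let s : Finset (Fin (k + 1) → F) := Finset.univ.erase 0
  have hs : s.card = (q ^ 2) ^ (k + 1) - 1 := by
    simp only [s]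
    rw [Finset.card_erase_of_mem (Finset.mem_univ _), Finset.card_univ, Fintype.card_fun, hF,
      Fintype.card_fin]
  have hfib : ∀ b ∈ s.image M, (s.filter fun v => M v = b).card ≤ q + 1 := by
    intro b hb
    obtain ⟨v₀, hv₀, rfl⟩ := Finset.mem_image.mp hb
    have hv₀0 : v₀ ≠ 0 := (Finset.mem_erase.mp hv₀).1
    obtain ⟨j₀, hj₀⟩ : ∃ j, v₀ j ≠ 0 := by
      by_contra hc
      push Not at hc
      exact hv₀0 (funext hc)
    have hsub : (s.filter fun v => M v = M v₀) ⊆
        ((Polynomial.nthRoots (q + 1) (1 : F)).toFinset).image (fun z => z • v₀) := by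
      intro v hv
      obtain ⟨-, hvM⟩ := Finset.mem_filter.mp hv
      have hentry : ∀ i j, v i * v j ^ q = v₀ i * v₀ j ^ q := by
        intro i j
        have h2 := congrFun (congrFun hvM i) j
        simp only [M, Matrix.of_apply] at h2
        have h3 : κ * (v i * v j ^ q) = κ * (v₀ i * v₀ j ^ q) := by
          linear_combination h2
        exact mul_left_cancel₀ hκ0 h3
      have hvj : v j₀ ^ q ≠ 0 := by
        intro h
        have h2 := hentry j₀ j₀
        rw [h, mul_zero] at h2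
        exact (mul_ne_zero hj₀ (pow_ne_zero _ hj₀)) h2.symm
      let ζ : F := v₀ j₀ ^ q / v j₀ ^ q
      have hvj' : v j₀ ≠ 0 := by
        intro h
        apply hvj
        rw [h, zero_pow_q hF]
      refine Finset.mem_image.mpr ⟨ζ, ?_, ?_⟩
      · rw [Multiset.mem_toFinset, Polynomial.mem_nthRoots (by omega)]
        simp only [ζ]
        rw [pow_succ, div_pow, ← pow_mul, ← pow_mul, ← pow_two q, ← hF, FiniteField.pow_card,
          FiniteField.pow_card]
        have h2 := hentry j₀ j₀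
        field_simp
        linear_combination (-1 : F) * h2 
      · funext i
        simp only [Pi.smul_apply, smul_eq_mul, ζ]
        have h2 := hentry i j₀
        field_simp
        linear_combination (-1 : F) * h2
    refine (Finset.card_le_card hsub).trans (Finset.card_image_le.trans ?_)
    exact (Multiset.toFinset_card_le _).trans (Polynomial.card_nthRoots _ _)
  have hmain := Finset.card_le_mul_card_image (f := M) s (q + 1) hfib
  rw [hs] at hmain
  refine hmain.trans (Nat.mul_le_mul_left _ ?_)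
  have hsubset : ((s.image M : Finset _) : Set _) ⊆ Orb q T := by
    intro b hb
    obtain ⟨v, hv, rfl⟩ := Finset.mem_image.mp hb
    exact hMmem v (Finset.mem_erase.mp hv).1
  have hle := Set.ncard_le_ncard hsubset (Set.toFinite _)
  rwa [Set.ncard_coe_finset] at hle

/-- **Orbit bound.** -/
theorem card_Orb (hk : 1 ≤ k) (hF : Fintype.card F = q ^ 2)
    {T : Matrix (Fin (k + 1)) (Fin (k + 1)) F} (hT : IsHer q T) (hT0 : T ≠ 0) :
    (q ^ 2) ^ (k + 1) - 1 ≤ (q + 1) * (Orb q T).ncard := by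
  by_cases h1 : ∀ x, Qf q T x x = 0 → ∀ y, Qf q T x y = 0
  · exact card_Orb_of_rank_one hk hF hT hT0 h1
  · push Not at h1
    obtain ⟨x, hx, y, hy⟩ := h1
    exact card_Orb_of_iso hk hF hT hT0 hx hy

end Cfsg.Agent.Lib.MinDeg.HermOrbit
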