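import Mathlib

/-!
# Weight spaces of a finite abelian group acting on a complex vector space

`r : A → End V` a representation of a finite additive group. The weight spaces `Wt r χ`,
`χ : AddChar A ℂ`, are independent and span `V`; tools to bound `dim V` from below by counting the
weights that occur.
-/

set_option autoImplicit false
set_option linter.unusedSectionVars false
set_option linter.unusedSimpArgs false

namespace Cfsg.Agent.Lib.MinDeg.Weights

variable {A : Type*} [AddCommGroup A] [Fintype A]
variable {V : Type*} [AddCommGroup V] [Module ℂ V]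

/-- A representation of the additive group `A` by endomorphisms. -/
structure AddAct (r : A → Module.End ℂ V) : Prop where
  zero : r 0 = 1
  add : ∀ a b, r (a + b) = r a * r b

/-- The weight space of a character. -/
def Wt (r : A → Module.End ℂ V) (χ : AddChar A ℂ) : Submodule ℂ V where
  carrier := {v | ∀ a, r a v = χ a • v}
  add_mem' := by
    intro v w hv hw b
    rw [map_add, hv b, hw b, smul_add]
  zero_mem' := by
    intro b
    simp
  smul_mem' := by
    intro c v hv b
    rw [map_smul, hv b, smul_comm]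

theorem mem_Wt {r : A → Module.End ℂ V} {χ : AddChar A ℂ} {v : V} :
    v ∈ Wt r χ ↔ ∀ a, r a v = χ a • v := Iff.rfl

/-- The projection to a weight space. -/
noncomputable def proj (r : A → Module.End ℂ V) (χ : AddChar A ℂ) : V →ₗ[ℂ] V :=
  (Fintype.card A : ℂ)⁻¹ • ∑ b : A, χ (-b) • r b

theorem proj_apply (r : A → Module.End ℂ V) (χ : AddChar A ℂ) (v : V) :
    proj r χ v = (Fintype.card A : ℂ)⁻¹ • ∑ b : A, χ (-b) • r b v := by
  simp [proj, LinearMap.sum_apply]

theorem card_ne_zero' : (Fintype.card A : ℂ) ≠ 0 := Nat.cast_ne_zero.mpr Fintype.card_ne_zero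

variable {r : A → Module.End ℂ V}

theorem AddAct.apply_add (hr : AddAct r) (c b : A) (v : V) : r c (r b v) = r (c + b) v := by
  rw [hr.add, Module.End.mul_apply]

theorem AddAct.apply_zero (hr : AddAct r) (v : V) : r 0 v = v := by
  rw [hr.zero]
  rfl

theorem proj_mem (hr : AddAct r) (χ : AddChar A ℂ) (v : V) : proj r χ v ∈ Wt r χ := by
  intro c
  rw [proj_apply, map_smul, map_sum, smul_comm]
  congr 1
  have e : ∀ b : A, r c (χ (-b) • r b v) = χ c • (χ (-(c + b)) • r (c + b) v) := by
    intro b
    rw [map_smul, hr.apply_add, smul_smul, ← AddChar.map_add_eq_mul]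
    congr 2
    abel
  simp_rw [e]
  rw [← Finset.smul_sum]
  congr 1
  exact Equiv.sum_comp (Equiv.addLeft c) (fun b => χ (-b) • r b v)

theorem sum_proj (c : A) (v : V) : ∑ χ : AddChar A ℂ, χ c • proj r χ v = r c v := by
  classical
  have key : ∀ χ : AddChar A ℂ, χ c • proj r χ v =
      (Fintype.card A : ℂ)⁻¹ • ∑ b, χ (c - b) • r b v := by
    intro χ
    rw [proj_apply, smul_comm, Finset.smul_sum]
    congr 1
    apply Finset.sum_congr rfl
    intro b _
    rw [smul_smul, ← AddChar.map_add_eq_mul, sub_eq_add_neg]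
  simp_rw [key]
  rw [← Finset.smul_sum, Finset.sum_comm]
  simp_rw [← Finset.sum_smul, AddChar.sum_apply_eq_ite, sub_eq_zero]
  rw [Finset.sum_eq_single c]
  · rw [if_pos rfl, smul_smul, inv_mul_cancel₀ (card_ne_zero' (A := A)), one_smul]
  · intro b _ hb
    rw [if_neg (Ne.symm hb), zero_smul]
  · simp

theorem proj_of_mem {χ : AddChar A ℂ} {v : V} (hv : v ∈ Wt r χ) : proj r χ v = v := by
  have e : ∀ b : A, χ (-b) • r b v = v := by
    intro b
    rw [hv b, smul_smul, ← AddChar.map_add_eq_mul, neg_add_cancel, AddChar.map_zero_eq_one, one_smul]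
  rw [proj_apply]
  simp_rw [e]
  rw [Finset.sum_const, Finset.card_univ, ← Nat.cast_smul_eq_nsmul ℂ, smul_smul,
    inv_mul_cancel₀ (card_ne_zero' (A := A)), one_smul]

theorem proj_of_mem_ne {χ χ' : AddChar A ℂ} {v : V} (hv : v ∈ Wt r χ') (hne : χ ≠ χ') :
    proj r χ v = 0 := by
  classical
  have e : ∀ b : A, χ (-b) • r b v = (χ⁻¹ * χ') b • v := by
    intro b
    rw [hv b, smul_smul, AddChar.mul_apply, AddChar.inv_apply]
  rw [proj_apply]
  simp_rw [e]
  rw [← Finset.sum_smul]
  have h1 : χ⁻¹ * χ' ≠ 0 := by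
    intro hc
    apply hne
    have h2 : χ⁻¹ * χ' = 1 := hc
    exact (inv_mul_eq_one.mp h2)
  rw [AddChar.sum_eq_zero_iff_ne_zero.mpr h1, zero_smul, smul_zero]

/-- Any vector is the sum of its weight components. -/
theorem sum_proj_zero (hr : AddAct r) (v : V) : ∑ χ : AddChar A ℂ, proj r χ v = v := by
  have := sum_proj (r := r) (0 : A) v
  simpa [hr.apply_zero, AddChar.map_zero_eq_one] using this

/-- A nontrivial action has a nontrivial weight. -/
theorem exists_wt_ne_one (hr : AddAct r) (h : ∃ c, r c ≠ 1) :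
    ∃ χ : AddChar A ℂ, χ ≠ 1 ∧ Wt r χ ≠ ⊥ := by
  classical
  by_contra hc
  push Not at hc
  obtain ⟨c₀, hc₀⟩ := h
  apply hc₀
  ext v
  have all : ∀ c : A, r c v = proj r 1 v := by
    intro c
    rw [← sum_proj (r := r) c v, Finset.sum_eq_single 1]
    · simp
    · intro χ _ hχ
      have h1 : proj r χ v = 0 := by
        have h2 := proj_mem hr χ v
        rw [hc χ hχ] at h2
        exact (Submodule.mem_bot ℂ).mp h2
      rw [h1, smul_zero]
    · simp
  rw [all c₀, ← all 0, hr.apply_zero]
  rfl

/-- A nonzero space has a weight. -/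
theorem exists_wt (hr : AddAct r) [Nontrivial V] : ∃ χ : AddChar A ℂ, Wt r χ ≠ ⊥ := by
  classical
  by_contra hc
  push Not at hc
  obtain ⟨v, hv⟩ := exists_ne (0 : V)
  apply hv
  rw [← sum_proj_zero hr v]
  apply Finset.sum_eq_zero
  intro χ _
  have h2 := proj_mem hr χ v
  rw [hc χ] at h2
  exact (Submodule.mem_bot ℂ).mp h2

/-- Independence of weight spaces. -/
theorem wt_indep : iSupIndep (fun χ : AddChar A ℂ => Wt r χ) := by
  intro χ
  rw [Submodule.disjoint_def]
  intro v hv hv'
  have h1 : (⨆ j, ⨆ (_ : j ≠ χ), Wt r j) ≤ LinearMap.ker (proj r χ) := by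
    apply iSup₂_le
    intro j hj w hw
    exact proj_of_mem_ne hw (Ne.symm hj)
  have h2 := h1 hv'
  rw [LinearMap.mem_ker, proj_of_mem hv] at h2
  exact h2

/-- The dimensions of the weight spaces add up to at most the dimension of `V`. -/
theorem sum_finrank_le [FiniteDimensional ℂ V] (S : Finset (AddChar A ℂ)) :
    ∑ χ ∈ S, Module.finrank ℂ (Wt r χ) ≤ Module.finrank ℂ V := by
  classical
  have hindep : iSupIndep (fun χ : S => Wt r (χ : AddChar A ℂ)) :=
    (wt_indep (r := r)).comp Subtype.val_injective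
  have hinj := hindep.dfinsupp_lsum_injective
  have h1 := LinearMap.finrank_le_finrank_of_injective hinj
  have h2 : Module.finrank ℂ (Π₀ i : S, Wt r (i : AddChar A ℂ)) =
      ∑ i : S, Module.finrank ℂ (Wt r (i : AddChar A ℂ)) :=
    Module.finrank_directSum (R := ℂ) (fun i : S => Wt r (i : AddChar A ℂ))
  rw [h2] at h1
  rwa [Finset.sum_coe_sort S (fun χ => Module.finrank ℂ (Wt r χ))] at h1

/-- The weights occurring have multiplicity at least `d`, and `S` is a set of `N` of them. -/
theorem card_mul_le [FiniteDimensional ℂ V] (S : Finset (AddChar A ℂ)) {d : ℕ}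
    (hd : ∀ χ ∈ S, d ≤ Module.finrank ℂ (Wt r χ)) : S.card * d ≤ Module.finrank ℂ V := by
  refine le_trans ?_ (sum_finrank_le (r := r) S)
  rw [← smul_eq_mul, ← Finset.sum_const]
  exact Finset.sum_le_sum hd

theorem card_le_of_ne_bot [FiniteDimensional ℂ V] (S : Finset (AddChar A ℂ))
    (hd : ∀ χ ∈ S, Wt r χ ≠ ⊥) : S.card ≤ Module.finrank ℂ V := by
  have := card_mul_le (r := r) S (d := 1) (fun χ hχ => by
    have h1 := hd χ hχ
    have h2 : 0 < Module.finrank ℂ (Wt r χ) := by
      rw [Nat.pos_iff_ne_zero]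
      intro h3
      exact h1 (Submodule.finrank_eq_zero.mp h3)
    omega)
  simpa using this

/-- The additive character defined by a nonzero eigenvector. -/
noncomputable def charOfEig (hr : AddAct r) {w : V} (hw : w ≠ 0) {f : A → ℂ} (hf : ∀ x, r x w = f x • w) :
    AddChar A ℂ where
  toFun := f
  map_zero_eq_one' := by
    have h1 := hf 0
    rw [hr.apply_zero] at h1
    have h2 : (1 - f 0) • w = 0 := by
      rw [sub_smul, one_smul, ← h1, sub_self]
    rcases smul_eq_zero.mp h2 with h3 | h3
    · exact (sub_eq_zero.mp h3).symm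
    · exact absurd h3 hw
  map_add_eq_mul' := by
    intro a b
    have h1 := hf (a + b)
    rw [hr.add, Module.End.mul_apply, hf b, map_smul, hf a, smul_smul] at h1
    have h2 : (f (a + b) - f b * f a) • w = 0 := by
      rw [sub_smul, ← h1, sub_self]
    rcases smul_eq_zero.mp h2 with h3 | h3
    · rw [sub_eq_zero.mp h3, mul_comm]
    · exact absurd h3 hw

@[simp] theorem charOfEig_apply (hr : AddAct r) {w : V} (hw : w ≠ 0) {f : A → ℂ}
    (hf : ∀ x, r x w = f x • w) (x : A) : charOfEig hr hw hf x = f x := rfl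

/-- **The shift lemma.** `s` a representation of the finite group `Y` on the nonzero space `W`;
invertible maps `c y` shift the weights of `s` by pairwise different functions. Then `dim W ≥ |Y|`. -/
theorem card_le_finrank_of_shift {W : Type*} [AddCommGroup W] [Module ℂ W] [FiniteDimensional ℂ W]
    [Nontrivial W] {Y : Type*} [AddCommGroup Y] [Fintype Y] {s : Y → Module.End ℂ W}
    (hs : AddAct s) {C : Type*} [Fintype C] (c : C → Module.End ℂ W) (ε : Y → C → ℂ)
    (hinj : ∀ y, Function.Injective (c y))
    (hcomm : ∀ x y, s x * c y = ε x y • (c y * s x))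
    (hsep : ∀ y y', (∀ x, ε x y = ε x y') → y = y') :
    Fintype.card C ≤ Module.finrank ℂ W := by
  classical
  obtain ⟨χ, hχ⟩ := exists_wt hs
  obtain ⟨v, hv, hv0⟩ := Submodule.exists_mem_ne_zero_of_ne_bot hχ
  have hcv : ∀ y, c y v ≠ 0 := by
    intro y h
    exact hv0 (hinj y (by rw [h, map_zero]))
  have heig : ∀ y x, s x (c y v) = (ε x y * χ x) • c y v := by
    intro y x
    have h1 := congrArg (fun f : Module.End ℂ W => f v) (hcomm x y)
    simp only [Module.End.mul_apply, LinearMap.smul_apply] at h1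
    rw [h1, hv x, map_smul, smul_smul]
  let ν : C → AddChar Y ℂ := fun y => charOfEig hs (hcv y) (heig y)
  have hνinj : Function.Injective ν := by
    intro y y' h
    apply hsep
    intro x
    have h1 : ε x y * χ x = ε x y' * χ x := by
      have := DFunLike.congr_fun h x
      exact this
    have h2 : χ x ≠ 0 := by
      have h3 : χ x * χ (-x) = 1 := by rw [← AddChar.map_add_eq_mul]; simp
      intro h4
      rw [h4, zero_mul] at h3
      exact zero_ne_one h3
    exact mul_right_cancel₀ h2 h1
  have hcard : (Finset.univ.image ν).card = Fintype.card C := by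
    rw [Finset.card_image_of_injective _ hνinj, Finset.card_univ]
  rw [← hcard]
  apply card_le_of_ne_bot (r := s)
  intro μ hμ
  obtain ⟨y, -, rfl⟩ := Finset.mem_image.mp hμ
  intro hbot
  have hmem : c y v ∈ Wt s (ν y) := fun x => heig y x
  rw [hbot] at hmem
  exact hcv y ((Submodule.mem_bot ℂ).mp hmem)

/-- The restriction of a representation of `A` to an invariant subspace. -/
noncomputable def restr (r : A → Module.End ℂ V) (W : Submodule ℂ V) (hW : ∀ a, ∀ v ∈ W, r a v ∈ W) :
    A → Module.End ℂ W :=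
  fun a => (r a).restrict (hW a)

theorem restr_addAct (hr : AddAct r) (W : Submodule ℂ V) (hW : ∀ a, ∀ v ∈ W, r a v ∈ W) :
    AddAct (restr r W hW) := by
  constructor
  · ext v
    simp [restr, hr.zero]
  · intro a b
    ext v
    simp [restr, hr.add]

/-! ### Representations of groups -/

/-- An irreducible representation on `Fin k → ℂ`, `2 ≤ k`, is not trivial. -/
theorem exists_ne_one_of_irreducible {G : Type*} [Group G] {k : ℕ}
    {ρ : Representation ℂ G (Fin k → ℂ)} (hρ : ρ.IsIrreducible) (hk : 2 ≤ k) : ∃ g, ρ g ≠ 1 := by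
  by_contra hc
  push Not at hc
  let i₀ : Fin k := ⟨0, by omega⟩
  let e₀ : Fin k → ℂ := Pi.single i₀ 1
  have he₀ : e₀ ≠ 0 := by
    intro hc
    have := congrFun hc i₀
    simp [e₀] at this
  let S : Subrepresentation ρ :=
    ⟨Submodule.span ℂ {e₀}, fun g v hv => by
      rw [hc g]
      exact hv⟩
  rcases hρ.eq_bot_or_eq_top S with hS | hS
  · have h2 : Submodule.span ℂ {e₀} = ⊥ := congrArg Subrepresentation.toSubmodule hS
    rw [Submodule.span_singleton_eq_bot] at h2
    exact he₀ h2
  · have h2 : Submodule.span ℂ {e₀} = ⊤ := congrArg Subrepresentation.toSubmodule hS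
    have h3 := finrank_span_singleton (K := ℂ) he₀
    rw [h2, finrank_top, Module.finrank_fin_fun] at h3
    omega

end Cfsg.Agent.Lib.MinDeg.Weights
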