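import Mathlib
import Cfsg.Agent.Lib.MinDeg.Weights
import Cfsg.Agent.Lib.MinDeg.HermOrbit

/-!
# The group of Hermitian matrices and its characters; the abstract degree bound

`HerA hF m` is the additive group of Hermitian matrices, its characters are `Y ↦ ψ (tr (T Y))`,
with `T` Hermitian.  A representation of a group containing a copy of `HerA` normalised by
`SL_m(F)` with a nontrivial restriction has large dimension.
-/

set_option autoImplicit false
set_option linter.unusedSectionVars false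
set_option linter.unusedSimpArgs false
set_option linter.unusedVariables false

namespace Cfsg.Agent.Lib.MinDeg.HermChar

open Matrix Cfsg.Agent.Lib.Classical.Herm.Basic
open Cfsg.Agent.Lib.MinDeg.HermOrbit Cfsg.Agent.Lib.MinDeg.Weights

variable {F : Type*} [Field F] [Fintype F] {q m : ℕ}

/-- The additive group of Hermitian matrices. -/
def HerA (hF : Fintype.card F = q ^ 2) (m : ℕ) : AddSubgroup (Matrix (Fin m) (Fin m) F) where
  carrier := {T | IsHer q T}
  add_mem' := by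
    intro a b ha hb
    show ct q (a + b) = a + b
    rw [ct_add hF, ha, hb]
  zero_mem' := by
    show ct q (0 : Matrix (Fin m) (Fin m) F) = 0
    ext i j
    simp [zero_pow_q hF]
  neg_mem' := by
    intro a ha
    show ct q (-a) = -a
    have h : ct q a = a := ha
    ext i j
    have h2 := congrFun (congrFun h i) j
    simp only [ct_apply] at h2
    simp only [ct_apply, Matrix.neg_apply, pow_q_neg hF, h2]

theorem mem_HerA {hF : Fintype.card F = q ^ 2} {T : Matrix (Fin m) (Fin m) F} :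
    T ∈ HerA hF m ↔ IsHer q T := Iff.rfl

noncomputable instance (hF : Fintype.card F = q ^ 2) : Fintype (HerA hF m) := Fintype.ofFinite _

/-- The character of `T`. -/
noncomputable def chiT (hF : Fintype.card F = q ^ 2) (ψ : AddChar F ℂ)
    (T : Matrix (Fin m) (Fin m) F) : AddChar (HerA hF m) ℂ where
  toFun Y := ψ (Matrix.trace (T * Y.1))
  map_zero_eq_one' := by simp
  map_add_eq_mul' := by
    intro a b
    simp [Matrix.mul_add, Matrix.trace_add, AddChar.map_add_eq_mul]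

@[simp] theorem chiT_apply (hF : Fintype.card F = q ^ 2) (ψ : AddChar F ℂ)
    (T : Matrix (Fin m) (Fin m) F) (Y : HerA hF m) : chiT hF ψ T Y = ψ (Matrix.trace (T * Y.1)) := rfl

/-- The rank one Hermitian matrix of `x`. -/
def rkOne (q : ℕ) (x : Fin m → F) : Matrix (Fin m) (Fin m) F := Matrix.of fun i j => x i * x j ^ q

theorem rkOne_isHer (hF : Fintype.card F = q ^ 2) (x : Fin m → F) : IsHer q (rkOne q x) := by
  ext i j
  simp [rkOne, mul_pow, pow_q_pow_q hF, mul_comm]

theorem trace_mul_rkOne (T : Matrix (Fin m) (Fin m) F) (x : Fin m → F) :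
    Matrix.trace (T * rkOne q x) = Qf q T x x := by
  simp only [Matrix.trace, Matrix.diag, Matrix.mul_apply, rkOne, Matrix.of_apply, Qf]
  refine Finset.sum_congr rfl fun a _ => Finset.sum_congr rfl fun b _ => ?_
  ring

theorem smul_isHer (hF : Fintype.card F = q ^ 2) {c : F} (hc : c ^ q = c)
    {Y : Matrix (Fin m) (Fin m) F} (hY : IsHer q Y) : IsHer q (c • Y) := by
  ext i j
  have h2 := congrFun (congrFun hY i) j
  simp only [ct_apply] at h2
  simp [mul_pow, hc, h2]

/-- Injectivity on Hermitian matrices. -/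
theorem chiT_injOn (hF : Fintype.card F = q ^ 2) {ψ : AddChar F ℂ} (hψ : ψ 1 ≠ 1)
    {T T' : Matrix (Fin m) (Fin m) F} (hT : IsHer q T) (hT' : IsHer q T')
    (h : chiT hF ψ T = chiT hF ψ T') : T = T' := by
  by_contra hne
  have hD : IsHer q (T - T') := by
    have : T + -T' ∈ HerA hF m := (HerA hF m).add_mem hT ((HerA hF m).neg_mem hT')
    rwa [← sub_eq_add_neg] at this
  have hD0 : T - T' ≠ 0 := sub_ne_zero.mpr hne
  obtain ⟨x, hx⟩ := exists_aniso hF hD hD0
  set c := Qf q (T - T') x x with hc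
  have hcq : c ^ q = c := Qf_self_pow_q hF hD x
  have hc'q : (c⁻¹) ^ q = c⁻¹ := by rw [inv_pow, hcq]
  let Y : HerA hF m := ⟨c⁻¹ • rkOne q x, smul_isHer hF hc'q (rkOne_isHer hF x)⟩
  have h1 := DFunLike.congr_fun h Y
  simp only [chiT_apply] at h1
  have h2 : Matrix.trace (T * Y.1) - Matrix.trace (T' * Y.1) = 1 := by
    rw [← Matrix.trace_sub, ← Matrix.sub_mul]
    show Matrix.trace ((T - T') * (c⁻¹ • rkOne q x)) = 1
    rw [Matrix.mul_smul, Matrix.trace_smul, trace_mul_rkOne, ← hc, smul_eq_mul, inv_mul_cancel₀ hx]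
  have h3 : Matrix.trace (T * Y.1) = 1 + Matrix.trace (T' * Y.1) := by linear_combination h2
  rw [h3, AddChar.map_add_eq_mul] at h1
  have h4 : ψ (Matrix.trace (T' * Y.1)) ≠ 0 := by
    intro h5
    have h6 : ψ (Matrix.trace (T' * Y.1)) * ψ (-Matrix.trace (T' * Y.1)) = 1 := by
      rw [← AddChar.map_add_eq_mul]
      simp
    rw [h5, zero_mul] at h6
    exact zero_ne_one h6
  apply hψ
  have h5 : ψ 1 * ψ (Matrix.trace (T' * Y.1)) = 1 * ψ (Matrix.trace (T' * Y.1)) := by
    rw [h1, one_mul]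
  exact mul_right_cancel₀ h4 h5

/-- Every character of `HerA` is a `chiT`. -/
theorem exists_chiT (hF : Fintype.card F = q ^ 2) {ψ : AddChar F ℂ} (hψ : ψ 1 ≠ 1)
    (χ : AddChar (HerA hF m) ℂ) : ∃ T : HerA hF m, chiT hF ψ T.1 = χ := by
  have hinj : Function.Injective (fun T : HerA hF m => chiT hF ψ T.1) := by
    intro T T' h
    exact Subtype.ext (chiT_injOn hF hψ T.2 T'.2 h)
  have hcard : Nat.card (HerA hF m) = Nat.card (AddChar (HerA hF m) ℂ) := by
    rw [Nat.card_eq_fintype_card, Nat.card_eq_fintype_card, AddChar.card_eq]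
  have hbij := (Nat.bijective_iff_injective_and_card _).mpr ⟨hinj, hcard⟩
  exact hbij.2 χ

theorem exists_psi : ∃ ψ : AddChar F ℂ, ψ 1 ≠ 1 :=
  AddChar.exists_apply_ne_zero.mpr one_ne_zero

/-- The action of `C` on Hermitian matrices. -/
def adj (hF : Fintype.card F = q ^ 2) (C : Matrix (Fin m) (Fin m) F) (Y : HerA hF m) : HerA hF m :=
  ⟨C * Y.1 * ct q C, by
    have h := isHer_transform hF Y.2 (ct q C)
    rwa [ct_ct hF] at h⟩

@[simp] theorem adj_coe (hF : Fintype.card F = q ^ 2) (C : Matrix (Fin m) (Fin m) F) (Y : HerA hF m) :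
    (adj hF C Y).1 = C * Y.1 * ct q C := rfl

theorem chiT_adj (hF : Fintype.card F = q ^ 2) (ψ : AddChar F ℂ) (T C : Matrix (Fin m) (Fin m) F)
    (Y : HerA hF m) : chiT hF ψ T (adj hF C Y) = chiT hF ψ (ct q C * T * C) Y := by
  simp only [chiT_apply, adj_coe]
  congr 1
  rw [← Matrix.mul_assoc, ← Matrix.mul_assoc, Matrix.trace_mul_comm, ← Matrix.mul_assoc]
  rw [Matrix.mul_assoc (ct q C), Matrix.mul_assoc (ct q C), Matrix.mul_assoc (ct q C), Matrix.mul_assoc T]

/-- The representation of `HerA` through `τ`. -/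
def rOf {G V : Type*} [Group G] [AddCommGroup V] [Module ℂ V] (ρ : Representation ℂ G V)
    {hF : Fintype.card F = q ^ 2} (τ : HerA hF m → G) : HerA hF m → Module.End ℂ V :=
  fun Y => ρ (τ Y)

theorem rOf_addAct {G V : Type*} [Group G] [AddCommGroup V] [Module ℂ V] (ρ : Representation ℂ G V)
    {hF : Fintype.card F = q ^ 2} {τ : HerA hF m → G} (hτ : ∀ a b, τ (a + b) = τ a * τ b) :
    AddAct (rOf ρ τ) := by
  have h0 : τ 0 = 1 := by
    have := hτ 0 0
    rw [add_zero] at this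
    exact (mul_eq_left.mp this.symm)
  constructor
  · simp [rOf, h0]
  · intro a b
    simp [rOf, hτ]

/-- **Translation of weights.** -/
theorem wt_translate {G V : Type*} [Group G] [AddCommGroup V] [Module ℂ V] (ρ : Representation ℂ G V)
    {hF : Fintype.card F = q ^ 2} {τ : HerA hF m → G} (ψ : AddChar F ℂ) {T : Matrix (Fin m) (Fin m) F}
    {C : Matrix (Fin m) (Fin m) F} {h : G} (hh : ∀ Y, h * τ Y * h⁻¹ = τ (adj hF C Y)) {v : V}
    (hv : v ∈ Wt (rOf ρ τ) (chiT hF ψ T)) : ρ h⁻¹ v ∈ Wt (rOf ρ τ) (chiT hF ψ (ct q C * T * C)) := by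
  intro Y
  show ρ (τ Y) (ρ h⁻¹ v) = _
  have e : τ Y * h⁻¹ = h⁻¹ * τ (adj hF C Y) := by
    rw [← hh Y]
    group
  rw [← Module.End.mul_apply, ← map_mul, e, map_mul, Module.End.mul_apply]
  have h1 : ρ (τ (adj hF C Y)) v = chiT hF ψ T (adj hF C Y) • v := hv (adj hF C Y)
  rw [h1, map_smul, chiT_adj]

/-- **The abstract bound.** `d` is a lower bound for the dimension of the weight spaces. -/
theorem abstract_bound {G V : Type*} [Group G] [AddCommGroup V] [Module ℂ V] [FiniteDimensional ℂ V]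
    (ρ : Representation ℂ G V) (hF : Fintype.card F = q ^ 2) {k : ℕ} (hk : 1 ≤ k)
    (τ : HerA hF (k + 1) → G) (hτ : ∀ a b, τ (a + b) = τ a * τ b)
    (hL : ∀ C : SpecialLinearGroup (Fin (k + 1)) F, ∃ h : G, ∀ Y,
      h * τ Y * h⁻¹ = τ (adj hF (C : Matrix (Fin (k + 1)) (Fin (k + 1)) F) Y))
    (hne : ∃ Y, ρ (τ Y) ≠ 1) (d : ℕ) (ψ : AddChar F ℂ) (hψ : ψ 1 ≠ 1)
    (hd : ∀ T : Matrix (Fin (k + 1)) (Fin (k + 1)) F, IsHer q T → T ≠ 0 →
      Wt (rOf ρ τ) (chiT hF ψ T) ≠ ⊥ → d ≤ Module.finrank ℂ (Wt (rOf ρ τ) (chiT hF ψ T))) :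
    ((q ^ 2) ^ (k + 1) - 1) * d ≤ (q + 1) * Module.finrank ℂ V := by
  classical
  have hr := rOf_addAct ρ hτ
  obtain ⟨χ, hχ, hχb⟩ := exists_wt_ne_one hr hne
  obtain ⟨⟨T, hT⟩, rfl⟩ := exists_chiT hF hψ χ
  have hT0 : T ≠ 0 := by
    rintro rfl
    apply hχ
    ext Y
    simp
  have hcount := card_Orb hk hF hT hT0
  -- the orbit as a finset
  have hfin : (Orb q T).Finite := Set.toFinite _
  let S : Finset (AddChar (HerA hF (k + 1)) ℂ) := hfin.toFinset.image (chiT hF ψ)
  have hScard : S.card = (Orb q T).ncard := by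
    rw [Finset.card_image_of_injOn, Set.ncard_eq_toFinset_card _ hfin]
    intro a ha b hb hab
    have ha' := hfin.mem_toFinset.mp ha
    have hb' := hfin.mem_toFinset.mp hb
    exact chiT_injOn hF hψ (isHer_of_mem_Orb hF hT ha') (isHer_of_mem_Orb hF hT hb') hab
  have hwt : ∀ T' ∈ Orb q T, Wt (rOf ρ τ) (chiT hF ψ T') ≠ ⊥ := by
    rintro T' ⟨C, rfl⟩
    obtain ⟨v, hv, hv0⟩ := Submodule.exists_mem_ne_zero_of_ne_bot hχb
    obtain ⟨h, hh⟩ := hL C
    have h1 := wt_translate ρ ψ hh hv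
    intro hbot
    rw [hbot] at h1
    have h2 : ρ h⁻¹ v = 0 := (Submodule.mem_bot ℂ).mp h1
    apply hv0
    have h3 : ρ h (ρ h⁻¹ v) = v := by
      rw [← Module.End.mul_apply, ← map_mul, mul_inv_cancel, map_one]
      rfl
    rw [← h3, h2, map_zero]
  have hmul : S.card * d ≤ Module.finrank ℂ V := by
    apply card_mul_le (r := rOf ρ τ)
    intro μ hμ
    obtain ⟨T', hT', rfl⟩ := Finset.mem_image.mp hμ
    have hT'' := hfin.mem_toFinset.mp hT'
    exact hd T' (isHer_of_mem_Orb hF hT hT'') (ne_zero_of_mem_Orb hF hT0 hT'') (hwt T' hT'')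
  rw [hScard] at hmul
  calc ((q ^ 2) ^ (k + 1) - 1) * d ≤ ((q + 1) * (Orb q T).ncard) * d := Nat.mul_le_mul_right _ hcount
    _ = (q + 1) * ((Orb q T).ncard * d) := by ring
    _ ≤ _ := Nat.mul_le_mul_left _ hmul

end Cfsg.Agent.Lib.MinDeg.HermChar
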