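import Mathlib
import Cfsg.Agent.Lib.MinDeg.HermChar
import Cfsg.Agent.Lib.Classical.Herm.Comm
import Cfsg.Agent.Lib.Classical.Herm.HermOnb
import Cfsg.Agent.Lib.Classical.Herm.Subfield
import Cfsg.Agent.Lib.Linalg.Transvection

/-!
# The Siegel radical of `SU_n(q)`

A frame `e, f` of a hyperbolic subspace; for a Hermitian matrix `Y`, the element
`x ↦ x + Σ ε Y_{ij} ⟪x, e_j⟫ e_i` of `SU_n(q)`, and its normalisation by `SL_m(F)`.
-/

set_option autoImplicit false
set_option linter.unusedSectionVars false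
set_option linter.unusedSimpArgs false
set_option linter.unusedVariables false

namespace Cfsg.Agent.Lib.MinDeg.SUSiegel

open Matrix Cfsg
open Cfsg.Agent.Lib.Classical.Herm.Basic Cfsg.Agent.Lib.Classical.Herm.Form
open Cfsg.Agent.Lib.Classical.Herm.GU Cfsg.Agent.Lib.Classical.Herm.SU
open Cfsg.Agent.Lib.Classical.Herm.Tv Cfsg.Agent.Lib.Classical.Herm.Comm
open Cfsg.Agent.Lib.Classical.Herm.Gen Cfsg.Agent.Lib.Classical.Herm.Subfield
open Cfsg.Agent.Lib.Classical.Herm.HermOnb
open Cfsg.Agent.Lib.MinDeg.HermOrbit Cfsg.Agent.Lib.MinDeg.HermChar Cfsg.Agent.Lib.MinDeg.Weights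

variable {F : Type*} [Field F] [Fintype F] {q n m : ℕ}

local notation "⟪" x ", " y "⟫" => hermForm _ _ q x y

/-- The form with Gram matrix the antidiagonal. -/
def revForm (n : ℕ) (q : ℕ) (x y : Fin n → F) : F := ∑ i, x i * y (Fin.rev i) ^ q

theorem revForm_isHerm (hF : Fintype.card F = q ^ 2) :
    IsHerm (F := F) q (revForm n q) := by
  refine ⟨fun x y z => ?_, fun c x y => ?_, fun x y => ?_, fun x hx => ?_⟩
  · simp only [revForm, Pi.add_apply, add_mul, Finset.sum_add_distrib]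
  · simp only [revForm, Pi.smul_apply, smul_eq_mul, mul_assoc, Finset.mul_sum]
  · simp only [revForm]
    rw [pow_q_sum hF]
    rw [← Equiv.sum_comp Fin.revPerm]
    refine Finset.sum_congr rfl fun i _ => ?_
    simp only [Fin.revPerm_apply, Fin.rev_rev, mul_pow, pow_q_pow_q hF]
    ring
  · funext i
    classical
    have h := hx (Pi.single (Fin.rev i) 1)
    simp only [revForm] at h
    rw [Finset.sum_eq_single i] at h
    · simpa using h
    · intro b _ hb
      have : Fin.rev b ≠ Fin.rev i := fun e => hb (Fin.rev_injective e)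
      simp [this, zero_pow_q hF]
    · simp

/-- A Witt basis of the standard Hermitian space. -/
theorem exists_u (hF : Fintype.card F = q ^ 2) (n : ℕ) :
    ∃ u : Fin n → Fin n → F, ∀ i j, ⟪u i, u j⟫ = if j = Fin.rev i then 1 else 0 := by
  classical
  obtain ⟨Φ, hΦ⟩ := exists_isometry hF n (Fin n → F) (revForm n q) (revForm_isHerm hF) (by simp)
  have h1 : ∀ x y : Fin n → F, ⟪Φ.symm x, Φ.symm y⟫ = revForm n q x y := by
    intro x y
    rw [← hΦ, Φ.apply_symm_apply, Φ.apply_symm_apply]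
  have h2 : ∀ (x : Fin n → F) (i : Fin n), revForm n q x (Pi.single (Fin.rev i) 1) = x i := by
    intro x i
    simp only [revForm]
    rw [Finset.sum_eq_single i]
    · simp
    · intro b _ hb
      have : Fin.rev b ≠ Fin.rev i := fun e => hb (Fin.rev_injective e)
      simp [this, zero_pow_q hF]
    · simp
  refine ⟨fun i => Φ.symm (Pi.single i 1), fun i j => ?_⟩
  rw [h1]
  have h3 := h2 (Pi.single i 1) (Fin.rev j)
  rw [Fin.rev_rev] at h3
  rw [h3]
  by_cases hij : j = Fin.rev i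
  · subst hij
    simp
  · rw [if_neg hij, Pi.single_eq_of_ne]
    intro e
    apply hij
    rw [← e, Fin.rev_rev]

/-- Hyperbolic frame. -/
structure Frame (F : Type*) [Field F] [Fintype F] (q n m : ℕ) where
  e : Fin m → Fin n → F
  f : Fin m → Fin n → F
  ee : ∀ i j, hermForm n F q (e i) (e j) = 0
  ff : ∀ i j, hermForm n F q (f i) (f j) = 0
  ef : ∀ i j, hermForm n F q (e i) (f j) = if i = j then 1 else 0

/-- Existence of frames. -/
theorem exists_frame (hF : Fintype.card F = q ^ 2) (hmn : 2 * m ≤ n) : Nonempty (Frame F q n m) := by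
  classical
  obtain ⟨u, hu⟩ := exists_u hF n
  let c : Fin m → Fin n := Fin.castLE (by omega)
  have hc : ∀ i, (c i : ℕ) = i := fun i => rfl
  refine ⟨⟨fun i => u (c i), fun i => u (Fin.rev (c i)), fun i j => ?_, fun i j => ?_, fun i j => ?_⟩⟩
  · rw [hu, if_neg]
    intro h
    have h2 := congrArg Fin.val h
    rw [Fin.val_rev, hc, hc] at h2
    have := i.2
    have := j.2
    omega
  · rw [hu, if_neg]
    intro h
    have h2 := congrArg Fin.val h
    rw [Fin.val_rev, Fin.val_rev, Fin.val_rev, hc, hc] at h2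
    have := i.2
    have := j.2
    omega
  · rw [hu]
    by_cases hij : i = j
    · subst hij
      simp
    · rw [if_neg hij, if_neg]
      intro h
      apply hij
      have h2 := congrArg Fin.val h
      rw [Fin.val_rev, Fin.val_rev, hc, hc] at h2
      have := i.2
      have := j.2
      apply Fin.ext
      omega

/-- Frames in odd dimension, with an anisotropic vector orthogonal to the frame. -/
theorem exists_frame_odd (hF : Fintype.card F = q ^ 2) (hn : n = 2 * m + 1) :
    ∃ fr : Frame F q n m, ∃ r : Fin n → F, ⟪r, r⟫ = 1 ∧ (∀ i, ⟪r, fr.e i⟫ = 0) ∧ (∀ i, ⟪r, fr.f i⟫ = 0) := by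
  classical
  obtain ⟨u, hu⟩ := exists_u hF n
  let c : Fin m → Fin n := Fin.castLE (by omega)
  have hc : ∀ i, (c i : ℕ) = i := fun i => rfl
  let mid : Fin n := ⟨m, by omega⟩
  have hmid : Fin.rev mid = mid := by
    apply Fin.ext
    rw [Fin.val_rev]
    show n - (m + 1) = m
    omega
  refine ⟨⟨fun i => u (c i), fun i => u (Fin.rev (c i)), fun i j => ?_, fun i j => ?_, fun i j => ?_⟩,
    u mid, ?_, fun i => ?_, fun i => ?_⟩
  · rw [hu, if_neg]
    intro h
    have h2 := congrArg Fin.val h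
    rw [Fin.val_rev, hc, hc] at h2
    have := i.2
    have := j.2
    omega
  · rw [hu, if_neg]
    intro h
    have h2 := congrArg Fin.val h
    rw [Fin.val_rev, Fin.val_rev, Fin.val_rev, hc, hc] at h2
    have := i.2
    have := j.2
    omega
  · rw [hu]
    by_cases hij : i = j
    · subst hij
      simp
    · rw [if_neg hij, if_neg]
      intro h
      apply hij
      have h2 := congrArg Fin.val h
      rw [Fin.val_rev, Fin.val_rev, hc, hc] at h2
      have := i.2
      have := j.2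
      apply Fin.ext
      omega
  · rw [hu, if_pos hmid.symm]
  · rw [hu, if_neg]
    intro h
    rw [hmid] at h
    have h2 := congrArg Fin.val h
    rw [hc] at h2
    have := i.2
    simp only [mid] at h2
    omega
  · rw [hu, if_neg]
    intro h
    have h3 : c i = mid := Fin.rev_injective h
    have h2 := congrArg Fin.val h3
    rw [hc] at h2
    have := i.2
    simp only [mid] at h2
    omega

variable (fr : Frame F q n m) (ε : F)

/-- The shift of `Y`. -/
def sh (Y : Matrix (Fin m) (Fin m) F) (x : Fin n → F) : Fin n → F :=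
  ∑ i, ∑ j, (ε * Y i j * ⟪x, fr.e j⟫) • fr.e i

/-- The nilpotent part of `τ_Y`. -/
noncomputable def tauN (Y : Matrix (Fin m) (Fin m) F) : Matrix (Fin n) (Fin n) F :=
  ∑ i, ∑ j, (ε * Y i j) • Matrix.vecMulVec (fr.e i) (fun l => fr.e j l ^ q)

theorem tauN_mulVec (Y : Matrix (Fin m) (Fin m) F) (x : Fin n → F) :
    tauN fr ε Y *ᵥ x = sh fr ε Y x := by
  simp only [tauN, sh, Matrix.sum_mulVec, Matrix.smul_mulVec, vecMulVec_mulVec', smul_smul]

/-- Linear combinations of the `e i`. -/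
def lin (a : Fin m → F) : Fin n → F := ∑ i, a i • fr.e i

/-- The coordinates `⟪x, e j⟫`. -/
def uu (x : Fin n → F) : Fin m → F := fun j => ⟪x, fr.e j⟫

variable {fr ε}

theorem form_sum_left {ι : Type*} (s : Finset ι) (g : ι → Fin n → F) (v : Fin n → F) :
    ⟪∑ i ∈ s, g i, v⟫ = ∑ i ∈ s, ⟪g i, v⟫ := by
  classical
  induction s using Finset.induction_on with
  | empty => simp [hermForm_zero_left]
  | insert a s ha ih => rw [Finset.sum_insert ha, Finset.sum_insert ha, hermForm_add_left, ih]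

theorem form_sum_right (hF : Fintype.card F = q ^ 2) {ι : Type*} (s : Finset ι) (g : ι → Fin n → F)
    (v : Fin n → F) : ⟪v, ∑ i ∈ s, g i⟫ = ∑ i ∈ s, ⟪v, g i⟫ := by
  classical
  induction s using Finset.induction_on with
  | empty => simp [hermForm_zero_right hF]
  | insert a s ha ih => rw [Finset.sum_insert ha, Finset.sum_insert ha, hermForm_add_right hF, ih]

theorem sh_eq (Y : Matrix (Fin m) (Fin m) F) (x : Fin n → F) :
    sh fr ε Y x = ε • lin fr (Y *ᵥ uu fr x) := by
  simp only [sh, lin, uu, Matrix.mulVec, dotProduct, Finset.smul_sum, Finset.sum_smul, smul_smul,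
    mul_assoc]

theorem act_sum {ι : Type*} (g : SU n F q) (s : Finset ι) (f : ι → Fin n → F) :
    act g (∑ i ∈ s, f i) = ∑ i ∈ s, act g (f i) := by
  classical
  induction s using Finset.induction_on with
  | empty => simp [act_zero]
  | insert a s ha ih => rw [Finset.sum_insert ha, Finset.sum_insert ha, act_add, ih]

theorem lin_form (a : Fin m → F) (k : Fin m) : ⟪lin fr a, fr.e k⟫ = 0 := by
  simp only [lin]
  rw [form_sum_left]
  apply Finset.sum_eq_zero
  intro i _
  rw [hermForm_smul_left, fr.ee, mul_zero]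

theorem lin_form_lin (hF : Fintype.card F = q ^ 2) (a b : Fin m → F) : ⟪lin fr a, lin fr b⟫ = 0 := by
  conv_lhs => rw [lin, lin]
  rw [form_sum_left]
  apply Finset.sum_eq_zero
  intro i _
  rw [form_sum_right hF]
  apply Finset.sum_eq_zero
  intro j _
  rw [hermForm_smul_left, hermForm_smul_right, fr.ee, mul_zero, mul_zero]

theorem sh_form (Y : Matrix (Fin m) (Fin m) F) (x : Fin n → F) (k : Fin m) :
    ⟪sh fr ε Y x, fr.e k⟫ = 0 := by
  rw [sh_eq, hermForm_smul_left, lin_form, mul_zero]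

theorem sh_add_right (Y : Matrix (Fin m) (Fin m) F) (x y : Fin n → F) :
    sh fr ε Y (x + y) = sh fr ε Y x + sh fr ε Y y := by
  simp only [sh, hermForm_add_left, mul_add, add_smul, Finset.sum_add_distrib]

theorem sh_sh (Y Y' : Matrix (Fin m) (Fin m) F) (x : Fin n → F) :
    sh fr ε Y (sh fr ε Y' x) = 0 := by
  simp only [sh]
  apply Finset.sum_eq_zero
  intro i _
  apply Finset.sum_eq_zero
  intro j _
  have := sh_form (fr := fr) (ε := ε) Y' x j
  simp only [sh] at this
  rw [this, mul_zero, zero_smul]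

theorem sh_add_left (Y Y' : Matrix (Fin m) (Fin m) F) (x : Fin n → F) :
    sh fr ε (Y + Y') x = sh fr ε Y x + sh fr ε Y' x := by
  simp only [sh, Matrix.add_apply, mul_add, add_mul, add_smul, Finset.sum_add_distrib]

theorem tauN_sq (Y : Matrix (Fin m) (Fin m) F) : tauN fr ε Y * tauN fr ε Y = 0 := by
  apply Matrix.mulVec_injective
  funext x
  rw [← Matrix.mulVec_mulVec, Matrix.zero_mulVec, tauN_mulVec, tauN_mulVec, sh_sh]

variable (fr ε)

/-- The matrix of `τ_Y`. -/
noncomputable def tauMat (Y : Matrix (Fin m) (Fin m) F) : Matrix (Fin n) (Fin n) F :=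
  1 + tauN fr ε Y

variable {fr ε}

theorem tauMat_mulVec (Y : Matrix (Fin m) (Fin m) F) (x : Fin n → F) :
    tauMat fr ε Y *ᵥ x = x + sh fr ε Y x := by
  rw [tauMat, Matrix.add_mulVec, Matrix.one_mulVec, tauN_mulVec]

theorem det_tauMat (Y : Matrix (Fin m) (Fin m) F) : (tauMat fr ε Y).det = 1 :=
  det_one_add_of_nilpotent _ ⟨2, by rw [pow_two]; exact tauN_sq Y⟩

theorem form_sh_left (Y : Matrix (Fin m) (Fin m) F) (x y : Fin n → F) :
    ⟪sh fr ε Y x, y⟫ = ∑ i, ∑ j, ε * Y i j * ⟪x, fr.e j⟫ * ⟪fr.e i, y⟫ := by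
  simp only [sh]
  rw [form_sum_left]
  refine Finset.sum_congr rfl fun i _ => ?_
  rw [form_sum_left]
  refine Finset.sum_congr rfl fun j _ => ?_
  rw [hermForm_smul_left]

theorem form_sh_right (hF : Fintype.card F = q ^ 2) (hε : ε ^ q = -ε)
    {Y : Matrix (Fin m) (Fin m) F} (hY : IsHer q Y) (x y : Fin n → F) :
    ⟪x, sh fr ε Y y⟫ = - ⟪sh fr ε Y x, y⟫ := by
  rw [form_sh_left]
  simp only [sh]
  rw [form_sum_right hF]
  rw [Finset.sum_comm, ← Finset.sum_neg_distrib]
  refine Finset.sum_congr rfl fun j _ => ?_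
  rw [← Finset.sum_neg_distrib]
  rw [form_sum_right hF]
  refine Finset.sum_congr rfl fun i _ => ?_
  rw [hermForm_smul_right, mul_pow, mul_pow, hε, hermForm_pow_q hF]
  have h2 := congrFun (congrFun hY i) j
  simp only [ct_apply] at h2
  rw [h2]
  ring

theorem preserves_tauMat (hF : Fintype.card F = q ^ 2) (hε : ε ^ q = -ε)
    {Y : Matrix (Fin m) (Fin m) F} (hY : IsHer q Y) : Preserves q (tauMat fr ε Y) := by
  intro x y
  rw [tauMat_mulVec, tauMat_mulVec, hermForm_add_left, hermForm_add_right hF, hermForm_add_right hF,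
    form_sh_right hF hε hY x y]
  have h0 : ⟪sh fr ε Y x, sh fr ε Y y⟫ = 0 := by
    rw [sh_eq, sh_eq, hermForm_smul_left, hermForm_smul_right, lin_form_lin hF]
    ring
  rw [h0]
  ring

/-- `τ_Y` as an element of `SU`. -/
noncomputable def tauH (hF : Fintype.card F = q ^ 2) (hε : ε ^ q = -ε) (fr : Frame F q n m)
    (Y : HerA hF m) : SU n F q :=
  mkSU (tauMat fr ε Y.1) (det_tauMat _) (preserves_tauMat hF hε Y.2)

section
variable {hF : Fintype.card F = q ^ 2} {hε : ε ^ q = -ε}

theorem act_tauH (Y : HerA hF m) (x : Fin n → F) :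
    act (tauH hF hε fr Y) x = x + sh fr ε Y.1 x := tauMat_mulVec _ _

theorem tauH_add (a b : HerA hF m) :
    tauH hF hε fr (a + b) = tauH hF hε fr a * tauH hF hε fr b := by
  apply ext_act
  intro x
  rw [act_mul, act_tauH, act_tauH, act_tauH]
  have : ((a + b : HerA hF m) : Matrix (Fin m) (Fin m) F) = a.1 + b.1 := rfl
  rw [this, sh_add_left, sh_add_right, sh_sh, add_zero, add_assoc, add_comm (sh fr ε a.1 x)]

/-! ### The Levi part -/

theorem act_lin (h : SU n F q) {C : Matrix (Fin m) (Fin m) F}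
    (hC : ∀ j, act h (fr.e j) = ∑ k, C k j • fr.e k) (a : Fin m → F) :
    act h (lin fr a) = lin fr (C *ᵥ a) := by
  simp only [lin, Matrix.mulVec, dotProduct]
  rw [act_sum]
  simp only [act_smul, hC, Finset.smul_sum, Finset.sum_smul, smul_smul]
  rw [Finset.sum_comm]
  refine Finset.sum_congr rfl fun k _ => Finset.sum_congr rfl fun i _ => ?_
  rw [mul_comm]

theorem uu_act_inv (hF : Fintype.card F = q ^ 2) (h : SU n F q) {C : Matrix (Fin m) (Fin m) F}
    (hC : ∀ j, act h (fr.e j) = ∑ k, C k j • fr.e k) (x : Fin n → F) :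
    uu fr (act h⁻¹ x) = ct q C *ᵥ uu fr x := by
  funext j
  simp only [uu, Matrix.mulVec, dotProduct, ct_apply]
  have h1 := h_act h (act h⁻¹ x) (fr.e j)
  rw [act_act_inv, hC, hermForm_sum_right hF] at h1
  rw [← h1]

theorem conj_tauH (h : SU n F q) {C : Matrix (Fin m) (Fin m) F}
    (hC : ∀ j, act h (fr.e j) = ∑ k, C k j • fr.e k) (Y : HerA hF m) :
    h * tauH hF hε fr Y * h⁻¹ = tauH hF hε fr (adj hF C Y) := by
  apply ext_act
  intro x
  rw [act_mul, act_mul, act_tauH, act_tauH, act_add, act_act_inv, sh_eq, sh_eq, act_smul, act_lin h hC,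
    uu_act_inv hF h hC, adj_coe]
  simp only [Matrix.mulVec_mulVec, Matrix.mul_assoc]

theorem Levi_one : ∀ j, act (1 : SU n F q) (fr.e j) = ∑ k, (1 : Matrix (Fin m) (Fin m) F) k j • fr.e k := by
  intro j
  classical
  rw [act_one, Finset.sum_eq_single j]
  · simp
  · intro k _ hk
    simp [Matrix.one_apply, hk]
  · simp

theorem Levi_mul {h h' : SU n F q} {C C' : Matrix (Fin m) (Fin m) F}
    (hC : ∀ j, act h (fr.e j) = ∑ k, C k j • fr.e k)
    (hC' : ∀ j, act h' (fr.e j) = ∑ k, C' k j • fr.e k) :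
    ∀ j, act (h * h') (fr.e j) = ∑ k, (C * C') k j • fr.e k := by
  intro j
  have h1 := act_lin h hC (fun k => C' k j)
  rw [act_mul, hC']
  simp only [lin] at h1
  rw [h1]
  refine Finset.sum_congr rfl fun k _ => ?_
  rw [Matrix.mul_apply]
  rfl

theorem Levi_transvection (hF : Fintype.card F = q ^ 2) {i j : Fin m} (hij : i ≠ j) (a : F) :
    ∃ h : SU n F q, ∀ l, act h (fr.e l) = ∑ k, (Matrix.transvection i j a) k l • fr.e k := by
  classical
  have hf : ⟪fr.f j, fr.f j⟫ = 0 := fr.ff j j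
  have hw : ⟪a • fr.e i, fr.f j⟫ = 0 := by
    rw [hermForm_smul_left, fr.ef, if_neg hij, mul_zero]
  have hβ : (0 : F) + 0 ^ q + ⟪a • fr.e i, a • fr.e i⟫ = 0 := by
    rw [hermForm_smul_left, hermForm_smul_right, fr.ee, zero_pow_q hF]
    ring
  refine ⟨siegel hF hf hw hβ, fun l => ?_⟩
  rw [act_siegel]
  have h1 : ⟪fr.e l, a • fr.e i⟫ = 0 := by
    rw [hermForm_smul_right, fr.ee, mul_zero]
  rw [h1, zero_smul, sub_zero, zero_mul, zero_smul, add_zero, fr.ef]
  simp only [Cfsg.Agent.Lib.Linalg.Transvection.transvection_apply_eq, add_smul, Finset.sum_add_distrib]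
  congr 1
  · rw [Finset.sum_eq_single l]
    · simp
    · intro b _ hb
      simp [hb]
    · simp
  · by_cases hl : l = j
    · subst hl
      rw [Finset.sum_eq_single i]
      · simp
      · intro b _ hb
        simp [hb]
      · simp
    · simp [hl]

/-- Every element of `SL_m(F)` is induced by an element of `SU`. -/
theorem exists_levi (hF : Fintype.card F = q ^ 2) (C : Matrix.SpecialLinearGroup (Fin m) F) :
    ∃ h : SU n F q, ∀ j, act h (fr.e j) = ∑ k, (C : Matrix (Fin m) (Fin m) F) k j • fr.e k := by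
  refine Cfsg.Agent.Lib.Linalg.Transvection.sl_transvection_induction
    (fun C => ∃ h : SU n F q, ∀ j, act h (fr.e j) = ∑ k, (C : Matrix (Fin m) (Fin m) F) k j • fr.e k)
    ⟨1, Levi_one⟩ (fun i j hij a => Levi_transvection hF hij a) ?_ C
  rintro A B ⟨h, hh⟩ ⟨h', hh'⟩
  exact ⟨h * h', Levi_mul hh hh'⟩

/-! ### Nontriviality -/

theorem e_ne_zero (hF : Fintype.card F = q ^ 2) (i : Fin m) : fr.e i ≠ 0 := by
  intro h
  have := fr.ef i i
  rw [h, hermForm_zero_left] at this
  simp at this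

theorem lin_isotropic (hF : Fintype.card F = q ^ 2) (a : Fin m → F) :
    ⟪lin fr a, lin fr a⟫ = 0 := lin_form_lin hF a a

/-- The transvection in `lin fr a` is a `τ`. -/
theorem tv_eq_tauH (hF : Fintype.card F = q ^ 2) (hε : ε ^ q = -ε) (hε0 : ε ≠ 0) (a : Fin m → F)
    {c : F} (hv : ⟪lin fr a, lin fr a⟫ = 0) (hc : c + c ^ q = 0) :
    ∃ Y : HerA hF m, Y.1 = (c / ε) • rkOne q a ∧ tv hF hv hc = tauH hF hε fr Y := by
  have hcq : (c / ε) ^ q = c / ε := by
    rw [div_pow, hε]
    have : c ^ q = -c := by linear_combination hc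
    rw [this]
    field_simp
  refine ⟨⟨(c / ε) • rkOne q a, smul_isHer hF hcq (rkOne_isHer hF a)⟩, rfl, ?_⟩
  apply ext_act
  intro x
  rw [act_tv, act_tauH]
  congr 1
  have h : ((c / ε) • rkOne q a) *ᵥ uu fr x = ((c / ε) * ⟪x, lin fr a⟫) • a := by
    funext i
    conv_rhs => rw [lin, hermForm_sum_right hF]
    simp only [Matrix.smul_mulVec, Pi.smul_apply, smul_eq_mul, Matrix.mulVec, dotProduct, rkOne,
      Matrix.of_apply, uu, Finset.mul_sum, Finset.sum_mul, Matrix.smul_apply]
    refine Finset.sum_congr rfl fun j _ => ?_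
    ring
  have h3 : lin fr (((c / ε) * ⟪x, lin fr a⟫) • a) = ((c / ε) * ⟪x, lin fr a⟫) • lin fr a := by
    simp only [lin, Pi.smul_apply, smul_eq_mul, Finset.smul_sum, smul_smul]
  rw [sh_eq]
  show (c * ⟪x, lin fr a⟫) • lin fr a = ε • lin fr (((c / ε) • rkOne q a) *ᵥ uu fr x)
  rw [h, h3, smul_smul]
  congr 1
  field_simp

/-- If the `τ_Y` act trivially then so does everything. -/
theorem exists_ne_tauH (hF : Fintype.card F = q ^ 2) (hε : ε ^ q = -ε) (hε0 : ε ≠ 0)
    (hn : 3 ≤ n) (h32 : ¬ (n = 3 ∧ q = 2)) (i₀ : Fin m) {V : Type*} [AddCommGroup V] [Module ℂ V]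
    (ρ : Representation ℂ (SU n F q) V) (hρ : ∃ g, ρ g ≠ 1) :
    ∃ Y, ρ (tauH hF hε fr Y) ≠ 1 := by
  classical
  by_contra hc
  push Not at hc
  obtain ⟨g, hg⟩ := hρ
  apply hg
  have hg' : g ∈ T n F q := by
    rw [T_eq_top hF hn h32]
    trivial
  -- the vector `e₀` as a `lin`
  let a₀ : Fin m → F := Pi.single i₀ 1
  have hlin : lin fr a₀ = fr.e i₀ := by
    simp only [lin, a₀]
    rw [Finset.sum_eq_single i₀]
    · simp
    · intro b _ hb
      simp [hb]
    · simp
  have he : ⟪lin fr a₀, lin fr a₀⟫ = 0 := lin_form_lin hF a₀ a₀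
  have he0 : lin fr a₀ ≠ 0 := by
    rw [hlin]
    exact e_ne_zero hF i₀
  have hgen : ∀ A ∈ tvSet n F q, ρ A = 1 := by
    rintro A ⟨v, c, hv, hA⟩
    by_cases hv0 : v = 0
    · have h1 : A = 1 := by
        apply ext_act
        intro x
        rw [act_one]
        show mat A *ᵥ x = x
        rw [hA, unitaryTransvection_mulVec, hv0]
        simp
      rw [h1, map_one]
    have hpres : Preserves q (unitaryTransvection n q v c) := by
      rw [← hA]
      exact preserves_su A
    have hc0 := trace_zero_of_preserves hF hv hv0 hpres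
    rw [eq_tv hF hv hc0 hA]
    obtain ⟨t, -, ht⟩ := reach_iso hF hn he hv he0 hv0
    have ht2 : ⟪act t (lin fr a₀), act t (lin fr a₀)⟫ = 0 := by rw [ht]; exact hv
    have hconj := conj_tv hF t he ht2 hc0
    obtain ⟨Y, -, hY⟩ := tv_eq_tauH (fr := fr) hF hε hε0 a₀ he hc0
    have h3 : tv hF hv hc0 = tv hF ht2 hc0 := by
      apply ext_act
      intro x
      rw [act_tv, act_tv, ht]
    rw [h3, ← hconj, hY, map_mul, map_mul, hc Y, mul_one, ← map_mul, mul_inv_cancel, map_one]
  have hall : ∀ g ∈ T n F q, ρ g = 1 := by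
    intro g hg
    refine Subgroup.closure_induction hgen (map_one ρ) (fun x y _ _ hx hy => ?_) (fun x _ hx => ?_) hg
    · rw [map_mul, hx, hy, mul_one]
    · have h1 : ρ x⁻¹ * ρ x = 1 := by
        rw [← map_mul, inv_mul_cancel, map_one]
      rwa [hx, mul_one] at h1
  exact hall g hg'

/-- The degree bound for the even-dimensional case, and the frame-independent statement. -/
theorem bound_of_frame {k' : ℕ} (hF : Fintype.card F = q ^ 2) (hm : m = k' + 1) (hk' : 1 ≤ k')
    (hn : 3 ≤ n) (h32 : ¬ (n = 3 ∧ q = 2)) (fr : Frame F q n m) {k : ℕ}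
    (ρ : Representation ℂ (SU n F q) (Fin k → ℂ)) (hρ : ∃ g, ρ g ≠ 1)
    (d : ℕ) (ψ : AddChar F ℂ) (hψ : ψ 1 ≠ 1) {ε : F} (hε : ε ^ q = -ε) (hε0 : ε ≠ 0)
    (hd : ∀ T : Matrix (Fin m) (Fin m) F, IsHer q T → T ≠ 0 →
      Wt (rOf ρ (tauH hF hε fr)) (chiT hF ψ T) ≠ ⊥ →
      d ≤ Module.finrank ℂ (Wt (rOf ρ (tauH hF hε fr)) (chiT hF ψ T))) :
    ((q ^ 2) ^ (k' + 1) - 1) * d ≤ (q + 1) * k := by
  subst hm
  have h1 := abstract_bound ρ hF hk' (tauH hF hε fr) (tauH_add)
    (fun C => by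
      obtain ⟨h, hh⟩ := exists_levi (fr := fr) hF C
      exact ⟨h, fun Y => conj_tauH h hh Y⟩)
    (exists_ne_tauH hF hε hε0 hn h32 0 ρ hρ) d ψ hψ hd
  simpa using h1

end

end Cfsg.Agent.Lib.MinDeg.SUSiegel
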