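import Mathlib
import Cfsg.Agent.Lib.MinDeg.SUSiegel
import Cfsg.Agent.Lib.MinDeg.Heis

/-!
# The weight spaces of the Siegel radical of `SU_{2m+1}(q)` have dimension at least `q`
-/

set_option autoImplicit false
set_option linter.unusedSectionVars false
set_option linter.unusedSimpArgs false
set_option linter.unusedVariables false

namespace Cfsg.Agent.Lib.MinDeg.SUOdd

open Matrix Cfsg
open scoped commutatorElement
open Cfsg.Agent.Lib.Classical.Herm.Basic Cfsg.Agent.Lib.Classical.Herm.Form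
open Cfsg.Agent.Lib.Classical.Herm.GU Cfsg.Agent.Lib.Classical.Herm.SU
open Cfsg.Agent.Lib.Classical.Herm.Tv Cfsg.Agent.Lib.Classical.Herm.Comm
open Cfsg.Agent.Lib.Classical.Herm.Gen Cfsg.Agent.Lib.Classical.Herm.Subfield
open Cfsg.Agent.Lib.MinDeg.HermOrbit Cfsg.Agent.Lib.MinDeg.HermChar Cfsg.Agent.Lib.MinDeg.Weights
open Cfsg.Agent.Lib.MinDeg.SUSiegel

variable {F : Type*} [Field F] [Fintype F] {q n m : ℕ}

local notation "⟪" x ", " y "⟫" => hermForm _ _ q x y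

/-- Restriction of `ρ g` to a weight space of the `τ`. -/
noncomputable def res {G V A : Type*} [Group G] [AddCommGroup V] [Module ℂ V] [AddCommGroup A] [Fintype A]
    (ρ : Representation ℂ G V) (τ : A → G) (χ : AddChar A ℂ) (g : G)
    (hg : ∀ Y, τ Y * g = g * τ Y) : Module.End ℂ (Wt (fun Y => ρ (τ Y)) χ) :=
  (ρ g).restrict (fun v hv Y => by
    show ρ (τ Y) (ρ g v) = χ Y • ρ g v
    rw [← Module.End.mul_apply, ← map_mul, hg, map_mul, Module.End.mul_apply]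
    have h1 : ρ (τ Y) v = χ Y • v := hv Y
    rw [h1, map_smul])

section
variable {G V A : Type*} [Group G] [AddCommGroup V] [Module ℂ V] [AddCommGroup A] [Fintype A]
  (ρ : Representation ℂ G V) (τ : A → G) (χ : AddChar A ℂ)

theorem res_mul {g g' : G} (hg : ∀ Y, τ Y * g = g * τ Y) (hg' : ∀ Y, τ Y * g' = g' * τ Y)
    (hgg : ∀ Y, τ Y * (g * g') = (g * g') * τ Y) :
    res ρ τ χ (g * g') hgg = res ρ τ χ g hg * res ρ τ χ g' hg' := by
  ext v
  simp [res]
  rfl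

theorem res_one (h1 : ∀ Y, τ Y * (1 : G) = 1 * τ Y) : res ρ τ χ 1 h1 = 1 := by
  ext v
  simp [res]

theorem res_congr {g g' : G} (h : g = g') (hg : ∀ Y, τ Y * g = g * τ Y)
    (hg' : ∀ Y, τ Y * g' = g' * τ Y) : res ρ τ χ g hg = res ρ τ χ g' hg' := by
  subst h
  rfl

theorem res_scalar {g : G} (hg : ∀ Y, τ Y * g = g * τ Y) {Y₀ : A} (h : g = τ Y₀) :
    res ρ τ χ g hg = χ Y₀ • 1 := by
  subst h
  ext v
  have h1 : ρ (τ Y₀) v.1 = χ Y₀ • v.1 := v.2 Y₀
  simp [res]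
  exact h1

end

/-! ### The Siegel elements -/

section
variable (hF : Fintype.card F = q ^ 2) {fr : Frame F q n m} {r : Fin n → F} {ε : F}
  {hε : ε ^ q = -ε} {x : Fin m → F}

theorem exists_kappa₀ (hF : Fintype.card F = q ^ 2) : ∃ κ₀ : F, κ₀ + κ₀ ^ q = 1 :=
  exists_trace_eq hF (one_pow q)

include hF

/-- Elements fixing all the `e j` commute with the `τ`. -/
theorem commute_tauH {g : SU n F q} (hg : ∀ j, act g (fr.e j) = fr.e j) (Y : HerA hF m) :
    tauH hF hε fr Y * g = g * tauH hF hε fr Y := by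
  have hC : ∀ j, act g (fr.e j) = ∑ k, (1 : Matrix (Fin m) (Fin m) F) k j • fr.e k := by
    intro j
    rw [hg]
    have := Levi_one (fr := fr) (q := q) (n := n) j
    rwa [act_one] at this
  have h1 := conj_tauH (hF := hF) (hε := hε) g hC Y
  have h2 : adj hF (1 : Matrix (Fin m) (Fin m) F) Y = Y := by
    apply Subtype.ext
    rw [adj_coe, ct_one hF, Matrix.one_mul, Matrix.mul_one]
  rw [h2] at h1
  exact (mul_inv_eq_iff_eq_mul.mp h1).symm

/-- The Siegel element of `a • r`. -/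
noncomputable def sg (he : ⟪lin fr x, lin fr x⟫ = 0) {κ₀ : F} (hκ : κ₀ + κ₀ ^ q = 1)
    (hr : ⟪r, r⟫ = 1) (hre : ∀ i, ⟪r, fr.e i⟫ = 0) (a : F) : SU n F q :=
  siegel hF he (w := a • r) (β := -κ₀ * a ^ (q + 1)) (by
      rw [hermForm_smul_left]
      simp only [lin]
      rw [hermForm_sum_right hF]
      rw [Finset.sum_eq_zero, mul_zero]
      intro i _
      rw [hre, mul_zero]) (by
      rw [hermForm_smul_left, hermForm_smul_right, hr]
      have h1 : (a ^ (q + 1)) ^ q = a ^ (q + 1) := by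
        rw [pow_succ, mul_pow, pow_q_pow_q hF]
        ring
      rw [mul_pow, h1, pow_q_neg hF]
      rw [pow_succ]
      linear_combination (- a ^ q * a) * hκ)

end

section
variable {hF : Fintype.card F = q ^ 2} {fr : Frame F q n m} {r : Fin n → F} {ε : F}
  {hε : ε ^ q = -ε} {x : Fin m → F}

theorem sg_fix (he : ⟪lin fr x, lin fr x⟫ = 0) {κ₀ : F} (hκ : κ₀ + κ₀ ^ q = 1)
    (hr : ⟪r, r⟫ = 1) (hre : ∀ i, ⟪r, fr.e i⟫ = 0) (a : F) (j : Fin m) :
    act (sg hF he hκ hr hre a) (fr.e j) = fr.e j := by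
  simp only [sg]
  rw [act_siegel]
  have h1 : ⟪fr.e j, lin fr x⟫ = 0 := hermForm_symm_zero hF (lin_form x j)
  have h2 : ⟪fr.e j, a • r⟫ = 0 := by
    rw [hermForm_smul_right, hermForm_symm_zero hF (hre j), mul_zero]
  rw [h1, h2]
  simp

theorem inv_fix {g : SU n F q} (hg : ∀ j, act g (fr.e j) = fr.e j) (j : Fin m) :
    act g⁻¹ (fr.e j) = fr.e j := by
  conv_lhs => rw [← hg j]
  exact act_inv_act g _

theorem conj_sg (he : ⟪lin fr x, lin fr x⟫ = 0) {κ₀ : F} (hκ : κ₀ + κ₀ ^ q = 1)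
    (hr : ⟪r, r⟫ = 1) (hre : ∀ i, ⟪r, fr.e i⟫ = 0) (hε0 : ε ≠ 0) (ψ : AddChar F ℂ)
    (T : Matrix (Fin m) (Fin m) F) (u a : F) :
    ∃ Y : HerA hF m, sg hF he hκ hr hre u * sg hF he hκ hr hre a * (sg hF he hκ hr hre u)⁻¹ =
        tauH hF hε fr Y * sg hF he hκ hr hre a ∧
      chiT hF ψ T Y = ψ (((u * a ^ q - a * u ^ q) / ε) * Qf q T x x) := by
  have hc : (u * a ^ q - a * u ^ q) + (u * a ^ q - a * u ^ q) ^ q = 0 := by
    rw [sub_eq_add_neg, pow_q_add hF, pow_q_neg hF, mul_pow, mul_pow, pow_q_pow_q hF, pow_q_pow_q hF]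
    ring
  obtain ⟨Y, hY, hY'⟩ := tv_eq_tauH (fr := fr) hF hε hε0 x he hc
  refine ⟨Y, ?_, ?_⟩
  · rw [← hY']
    have h1 : ⁅sg hF he hκ hr hre u, sg hF he hκ hr hre a⁆ = tv hF he hc := by
      simp only [sg]
      apply commutator_siegel
      simp only [hermForm_smul_left, hermForm_smul_right, hr]
      ring
    rw [← h1, commutatorElement_def]
    group
  · rw [chiT_apply, hY, Matrix.mul_smul, Matrix.trace_smul, trace_mul_rkOne, smul_eq_mul]

/-- **The weight spaces have dimension at least `q`.** -/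
theorem q_le_finrank {V : Type*} [AddCommGroup V] [Module ℂ V] [FiniteDimensional ℂ V]
    (hF : Fintype.card F = q ^ 2) (hε : ε ^ q = -ε) (hε0 : ε ≠ 0) (fr : Frame F q n m)
    (hr : ⟪r, r⟫ = 1) (hre : ∀ i, ⟪r, fr.e i⟫ = 0)
    (ρ : Representation ℂ (SU n F q) V) {ψ : AddChar F ℂ} (hψ : ψ 1 ≠ 1)
    {T : Matrix (Fin m) (Fin m) F} (hT : IsHer q T) (hT0 : T ≠ 0)
    (hW : Wt (rOf ρ (tauH hF hε fr)) (chiT hF ψ T) ≠ ⊥) :
    q ≤ Module.finrank ℂ (Wt (rOf ρ (tauH hF hε fr)) (chiT hF ψ T)) := by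
  classical
  obtain ⟨x, hx⟩ := exists_aniso hF hT hT0
  have hQ := Qf_self_pow_q hF hT x
  set Q := Qf q T x x with hQdef
  have he := lin_isotropic (fr := fr) hF x
  obtain ⟨κ₀, hκ⟩ := exists_kappa₀ hF
  let σ : F → SU n F q := sg hF he hκ hr hre
  have hfix : ∀ a j, act (σ a) (fr.e j) = fr.e j := sg_fix he hκ hr hre
  let τ := tauH hF hε fr
  let χ := chiT hF ψ T
  have hc1 : ∀ a Y, τ Y * σ a = σ a * τ Y := fun a Y => commute_tauH hF (hfix a) Y
  have hc2 : ∀ a Y, τ Y * (σ a)⁻¹ = (σ a)⁻¹ * τ Y := fun a Y => commute_tauH hF (inv_fix (hfix a)) Y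
  have : Nontrivial (Wt (fun Y => ρ (τ Y)) χ) := Submodule.nontrivial_iff_ne_bot.mpr hW
  let g : F → Module.End ℂ (Wt (fun Y => ρ (τ Y)) χ) := fun a => res ρ τ χ (σ a) (hc1 a)
  let gi : F → Module.End ℂ (Wt (fun Y => ρ (τ Y)) χ) := fun a => res ρ τ χ (σ a)⁻¹ (hc2 a)
  have hone : ∀ Y, τ Y * (1 : SU n F q) = 1 * τ Y := fun Y => by simp
  have hgi : ∀ a, g a * gi a = 1 := by
    intro a
    have h1 : ∀ Y, τ Y * (σ a * (σ a)⁻¹) = (σ a * (σ a)⁻¹) * τ Y := fun Y => by simp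
    show res ρ τ χ (σ a) (hc1 a) * res ρ τ χ (σ a)⁻¹ (hc2 a) = 1
    rw [← res_mul ρ τ χ (hc1 a) (hc2 a) h1, res_congr ρ τ χ (mul_inv_cancel (σ a)) h1 hone,
      res_one]
  have hgi' : ∀ a, gi a * g a = 1 := by
    intro a
    have h1 : ∀ Y, τ Y * ((σ a)⁻¹ * σ a) = ((σ a)⁻¹ * σ a) * τ Y := fun Y => by simp
    show res ρ τ χ (σ a)⁻¹ (hc2 a) * res ρ τ χ (σ a) (hc1 a) = 1
    rw [← res_mul ρ τ χ (hc2 a) (hc1 a) h1, res_congr ρ τ χ (inv_mul_cancel (σ a)) h1 hone,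
      res_one]
  -- conjugation
  have hconj : ∀ u a, g u * g a * gi u = ψ (((u * a ^ q - a * u ^ q) / ε) * Q) • g a := by
    intro u a
    obtain ⟨Y, hY, hYχ⟩ := conj_sg (hF := hF) (hε := hε) he hκ hr hre hε0 ψ T u a
    have hh1 : ∀ Y', τ Y' * (σ u * σ a) = (σ u * σ a) * τ Y' := fun Y' => by
      rw [← mul_assoc, hc1 u Y', mul_assoc, hc1 a Y']
      simp only [mul_assoc]
    have hh2 : ∀ Y', τ Y' * (σ u * σ a * (σ u)⁻¹) = (σ u * σ a * (σ u)⁻¹) * τ Y' := fun Y' => by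
      rw [← mul_assoc, hh1 Y', mul_assoc, hc2 u Y']
      simp only [mul_assoc]
    have hh3 : ∀ Y', τ Y' * τ Y = τ Y * τ Y' := fun Y' => by
      rw [← tauH_add, ← tauH_add, add_comm]
    have hh4 : ∀ Y', τ Y' * (τ Y * σ a) = (τ Y * σ a) * τ Y' := fun Y' => by
      rw [← mul_assoc, hh3 Y', mul_assoc, hc1 a Y']
      simp only [mul_assoc]
    show res ρ τ χ (σ u) (hc1 u) * res ρ τ χ (σ a) (hc1 a) * res ρ τ χ (σ u)⁻¹ (hc2 u) = _
    rw [← res_mul ρ τ χ (hc1 u) (hc1 a) hh1, ← res_mul ρ τ χ hh1 (hc2 u) hh2,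
      res_congr ρ τ χ hY hh2 hh4, res_mul ρ τ χ hh3 (hc1 a) hh4, res_scalar ρ τ χ hh3 rfl]
    show χ Y • 1 * g a = _
    rw [smul_mul_assoc, one_mul]
    congr 1
  have hψne : ∀ t : F, ψ t ≠ 0 := by
    intro t h5
    have h6 : ψ t * ψ (-t) = 1 := by
      rw [← AddChar.map_add_eq_mul]
      simp
    rw [h5, zero_mul] at h6
    exact zero_ne_one h6
  have hcard := Cfsg.Agent.Lib.MinDeg.Heis.card_le_sq g gi hgi hgi' (fun a b hab => by
    have hd : a - b ≠ 0 := sub_ne_zero.mpr hab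
    set d := a - b with hddef
    have hN : d ^ (q + 1) ≠ 0 := pow_ne_zero _ hd
    have hNq : (d ^ (q + 1)) ^ q = d ^ (q + 1) := by
      rw [pow_succ, mul_pow, pow_q_pow_q hF]
      ring
    have hc₁ : (-ε / (Q * d ^ (q + 1))) ^ q = -(-ε / (Q * d ^ (q + 1))) := by
      rw [div_pow, pow_q_neg hF, hε, mul_pow, hQ, hNq]
      ring
    obtain ⟨z, hz⟩ := exists_sub_pow_eq hF hc₁
    refine ⟨g (d * z), gi (d * z), ψ (((d * z * a ^ q - a * (d * z) ^ q) / ε) * Q),
      ψ (((d * z * b ^ q - b * (d * z) ^ q) / ε) * Q), hgi _, hgi' _, hconj _ _, hconj _ _, ?_⟩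
    have hdq : d ^ q = a ^ q - b ^ q := by
      rw [hddef, sub_eq_add_neg, pow_q_add hF, pow_q_neg hF, sub_eq_add_neg]
    have h1 : ((d * z * a ^ q - a * (d * z) ^ q) / ε) * Q =
        1 + ((d * z * b ^ q - b * (d * z) ^ q) / ε) * Q := by
      have h2 : (z ^ q - z) * (Q * d ^ (q + 1)) = -ε := by
        rw [hz]
        field_simp
      have h3 : d * z * (a ^ q - b ^ q) - (a - b) * (d * z) ^ q = ε / Q := by
        rw [← hdq, ← hddef, mul_pow]
        have h4 : d * z * d ^ q - d * (d ^ q * z ^ q) = - ((z ^ q - z) * d ^ (q + 1)) := by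
          rw [pow_succ]
          ring
        rw [h4]
        field_simp
        linear_combination -h2
      have h5 : ((d * z * a ^ q - a * (d * z) ^ q) - (d * z * b ^ q - b * (d * z) ^ q)) = ε / Q := by
        rw [← h3]
        ring
      field_simp
      have h6 := h5
      field_simp at h6
      linear_combination h6
    rw [h1, AddChar.map_add_eq_mul]
    intro h2
    apply hψ
    have h3 := hψne (((d * z * b ^ q - b * (d * z) ^ q) / ε) * Q)
    have h4 : ψ 1 * ψ (((d * z * b ^ q - b * (d * z) ^ q) / ε) * Q) =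
        1 * ψ (((d * z * b ^ q - b * (d * z) ^ q) / ε) * Q) := by
      rw [h2, one_mul]
    exact mul_right_cancel₀ h3 h4)
  rw [hF] at hcard
  have hfinal : q ≤ Module.finrank ℂ (Wt (fun Y => ρ (τ Y)) χ) :=
    (Nat.pow_le_pow_iff_left (by norm_num)).mp hcard
  exact hfinal

end

/-! ### The torus of `SU_3(q)` -/

theorem exists_torus3 (hF : Fintype.card F = q ^ 2) {e f r : Fin 3 → F} (he : ⟪e, e⟫ = 0)
    (hf : ⟪f, f⟫ = 0) (hef : ⟪e, f⟫ = 1) (hr : ⟪r, r⟫ = 1) (hre : ⟪r, e⟫ = 0) (hrf : ⟪r, f⟫ = 0)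
    {l : F} (hl : l ≠ 0) : ∃ h : SU 3 F q, act h e = l • e := by
  classical
  have hfe : ⟪f, e⟫ = 1 := hermForm_symm_one hF hef
  have her : ⟪e, r⟫ = 0 := hermForm_symm_zero hF hre
  have hfr : ⟪f, r⟫ = 0 := hermForm_symm_zero hF hrf
  have hL0 : l ^ q ≠ 0 := pow_ne_zero _ hl
  have hLL : (l ^ q) ^ q = l := pow_q_pow_q hF l
  set b : F := (l ^ q)⁻¹ with hb
  set μ : F := l ^ q * l⁻¹ with hμ
  have hbq : b ^ q = l⁻¹ := by rw [hb, inv_pow, hLL]
  have hμq : μ ^ q = l * (l ^ q)⁻¹ := by rw [hμ, mul_pow, hLL, inv_pow]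
  let M : Matrix (Fin 3) (Fin 3) F := 1 + (l - 1) • Matrix.vecMulVec e (fun j => f j ^ q)
    + (b - 1) • Matrix.vecMulVec f (fun j => e j ^ q) + (μ - 1) • Matrix.vecMulVec r (fun j => r j ^ q)
  have hM : ∀ x, M *ᵥ x = x + ((l - 1) * ⟪x, f⟫) • e + ((b - 1) * ⟪x, e⟫) • f
      + ((μ - 1) * ⟪x, r⟫) • r := by
    intro x
    simp only [M, Matrix.add_mulVec, Matrix.one_mulVec, Matrix.smul_mulVec, vecMulVec_mulVec', smul_smul]
  have hpres : Preserves q M := by
    intro x y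
    rw [hM, hM]
    simp only [hermForm_add_left, hermForm_add_right hF, hermForm_smul_left, hermForm_smul_right,
      he, hf, hef, hfe, hr, hre, hrf, her, hfr, mul_pow, hermForm_pow_q hF, pow_q_sub hF, one_pow, hbq, hμq]
    have h1 : l * l⁻¹ = 1 := mul_inv_cancel₀ hl
    have h2 : l ^ q * (l ^ q)⁻¹ = 1 := mul_inv_cancel₀ hL0
    have h3 : b = (l ^ q)⁻¹ := hb
    have h4 : μ = l ^ q * l⁻¹ := hμ
    rw [h3, h4]
    field_simp
    ring
  have hMe : M *ᵥ e = l • e := by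
    rw [hM, hef, he, her]
    funext i
    simp
    ring
  have hMf : M *ᵥ f = b • f := by
    rw [hM, hf, hfe, hfr]
    funext i
    simp
    ring
  have hMr : M *ᵥ r = μ • r := by
    rw [hM, hre, hrf, hr]
    funext i
    simp
    ring
  let B : Matrix (Fin 3) (Fin 3) F := Matrix.of fun i j => (![e, f, r] : Fin 3 → Fin 3 → F) j i
  let D : Fin 3 → F := ![l, b, μ]
  have hMB : M * B = B * Matrix.diagonal D := by
    ext i j
    rw [Matrix.mul_diagonal]
    have h1 : (M * B) i j = (M *ᵥ (![e, f, r] : Fin 3 → Fin 3 → F) j) i := rfl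
    rw [h1]
    fin_cases j
    · show (M *ᵥ e) i = e i * l
      rw [hMe]
      simp [mul_comm]
    · show (M *ᵥ f) i = f i * b
      rw [hMf]
      simp [mul_comm]
    · show (M *ᵥ r) i = r i * μ
      rw [hMr]
      simp [mul_comm]
  have hB : B.det ≠ 0 := by
    intro h0
    obtain ⟨v, hv, hBv⟩ := Matrix.exists_mulVec_eq_zero_iff.mpr h0
    have hv' : v 0 • e + v 1 • f + v 2 • r = 0 := by
      rw [← hBv]
      funext i
      simp [Matrix.mulVec, dotProduct, Fin.sum_univ_three, B, mul_comm]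
    apply hv
    have h1 := congrArg (fun z => ⟪z, f⟫) hv'
    have h2 := congrArg (fun z => ⟪z, e⟫) hv'
    have h3 := congrArg (fun z => ⟪z, r⟫) hv'
    simp only [hermForm_add_left, hermForm_smul_left, hermForm_zero_left, he, hf, hef, hfe, hr, hre,
      hrf, her, hfr, mul_zero, mul_one, add_zero, zero_add] at h1 h2 h3
    funext i
    fin_cases i
    · exact h1
    · exact h2
    · exact h3
  have hdet : M.det = 1 := by
    have h1 := congrArg Matrix.det hMB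
    rw [Matrix.det_mul, Matrix.det_mul, Matrix.det_diagonal, Fin.prod_univ_three] at h1
    have h2 : D 0 * D 1 * D 2 = 1 := by
      show l * b * μ = 1
      rw [hb, hμ]
      field_simp
    rw [h2, mul_one] at h1
    exact mul_right_cancel₀ hB (by rw [h1, one_mul])
  exact ⟨mkSU M hdet hpres, hMe⟩

/-! ### `m = 1` -/

/-- The count for `SU_3`. -/
theorem bound_one {k : ℕ} (hF : Fintype.card F = q ^ 2) {ε : F} (hε : ε ^ q = -ε) (hε0 : ε ≠ 0)
    (fr : Frame F q 3 1) (hL : ∀ l : F, l ≠ 0 → ∃ h : SU 3 F q, act h (fr.e 0) = l • fr.e 0)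
    (ρ : Representation ℂ (SU 3 F q) (Fin k → ℂ)) (hne : ∃ Y, ρ (tauH hF hε fr Y) ≠ 1)
    (d : ℕ) (ψ : AddChar F ℂ) (hψ : ψ 1 ≠ 1)
    (hd : ∀ T : Matrix (Fin 1) (Fin 1) F, IsHer q T → T ≠ 0 →
      Wt (rOf ρ (tauH hF hε fr)) (chiT hF ψ T) ≠ ⊥ →
      d ≤ Module.finrank ℂ (Wt (rOf ρ (tauH hF hε fr)) (chiT hF ψ T))) :
    (q - 1) * d ≤ k := by
  classical
  have hr := rOf_addAct ρ (τ := tauH hF hε fr) tauH_add
  obtain ⟨χ, hχ, hχb⟩ := exists_wt_ne_one hr hne
  obtain ⟨⟨T, hT⟩, rfl⟩ := exists_chiT hF hψ χ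
  have hT0 : T ≠ 0 := by
    rintro rfl
    apply hχ
    ext Y
    simp
  let N : Finset F := Finset.univ.filter (fun ν => ν ^ q = ν ∧ ν ≠ 0)
  have hNcard : q - 1 ≤ N.card := by
    have h1 := card_fixed hF
    have h2 : Fintype.card {x : F // x ^ q = x} = q := by
      rwa [Nat.card_eq_fintype_card] at h1
    have h3 : (Finset.univ.filter (fun ν : F => ν ^ q = ν)).card = q := by
      rw [Fintype.card_subtype] at h2
      exact h2
    have h4 : Finset.univ.filter (fun ν : F => ν ^ q = ν) ⊆ insert 0 N := by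
      intro ν hν
      rw [Finset.mem_filter] at hν
      by_cases h0 : ν = 0
      · simp [h0]
      · simp only [Finset.mem_insert, N, Finset.mem_filter, Finset.mem_univ, true_and]
        exact Or.inr ⟨hν.2, h0⟩
    have h5 := Finset.card_le_card h4
    have h6 := Finset.card_insert_le (0 : F) N
    omega
  have hsmul : ∀ ν ∈ N, IsHer q (ν • T) := by
    intro ν hν
    exact smul_isHer hF (Finset.mem_filter.mp hν).2.1 hT
  have hsmul0 : ∀ ν ∈ N, ν • T ≠ 0 := by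
    intro ν hν h
    rcases smul_eq_zero.mp h with h1 | h1
    · exact (Finset.mem_filter.mp hν).2.2 h1
    · exact hT0 h1
  let S : Finset (AddChar (HerA hF 1) ℂ) := N.image (fun ν => chiT hF ψ (ν • T))
  have hScard : S.card = N.card := by
    apply Finset.card_image_of_injOn
    intro a ha b hb hab
    have h1 := chiT_injOn hF hψ (hsmul a ha) (hsmul b hb) hab
    have h2 : (a - b) • T = 0 := by
      rw [sub_smul, h1, sub_self]
    rcases smul_eq_zero.mp h2 with h3 | h3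
    · exact sub_eq_zero.mp h3
    · exact absurd h3 hT0
  have hmem : ∀ ν ∈ N, Wt (rOf ρ (tauH hF hε fr)) (chiT hF ψ (ν • T)) ≠ ⊥ := by
    intro ν hν
    obtain ⟨-, hνq, hν0⟩ := Finset.mem_filter.mp hν
    obtain ⟨l, hl⟩ := exists_norm_eq hF ν hν0 hνq
    have hl0 : l ≠ 0 := by
      rintro rfl
      rw [zero_pow (by omega)] at hl
      exact hν0 hl.symm
    obtain ⟨h, hh⟩ := hL l hl0
    have hC : ∀ j : Fin 1, act h (fr.e j) = ∑ k : Fin 1, (l • (1 : Matrix (Fin 1) (Fin 1) F)) k j • fr.e k := by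
      intro j
      obtain rfl : j = 0 := Subsingleton.elim _ _
      simp [hh]
    have hconj : ∀ Y, h * tauH hF hε fr Y * h⁻¹ = tauH hF hε fr (adj hF (l • (1 : Matrix (Fin 1) (Fin 1) F)) Y) :=
      fun Y => conj_tauH h hC Y
    obtain ⟨v, hv, hv0⟩ := Submodule.exists_mem_ne_zero_of_ne_bot hχb
    have h1 := wt_translate ρ ψ hconj hv
    have h2 : ct q (l • (1 : Matrix (Fin 1) (Fin 1) F)) * T * (l • (1 : Matrix (Fin 1) (Fin 1) F)) = ν • T := by
      ext i j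
      obtain rfl : i = 0 := Subsingleton.elim _ _
      obtain rfl : j = 0 := Subsingleton.elim _ _
      rw [← hl]
      simp [Matrix.mul_apply, pow_succ]
      ring
    rw [h2] at h1
    intro hbot
    rw [hbot] at h1
    have h3 : ρ h⁻¹ v = 0 := (Submodule.mem_bot ℂ).mp h1
    apply hv0
    have h4 : ρ h (ρ h⁻¹ v) = v := by
      rw [← Module.End.mul_apply, ← map_mul, mul_inv_cancel, map_one]
      rfl
    rw [← h4, h3, map_zero]
  have hmul : S.card * d ≤ Module.finrank ℂ (Fin k → ℂ) := by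
    apply card_mul_le (r := rOf ρ (tauH hF hε fr))
    intro μ hμ
    obtain ⟨ν, hν, rfl⟩ := Finset.mem_image.mp hμ
    exact hd _ (hsmul ν hν) (hsmul0 ν hν) (hmem ν hν)
  rw [hScard, Module.finrank_fin_fun] at hmul
  exact le_trans (Nat.mul_le_mul_right _ hNcard) hmul

end Cfsg.Agent.Lib.MinDeg.SUOdd
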