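import Mathlib
import Cfsg.Agent.Lib.Linalg.Bridge
import Cfsg.Agent.Lib.Classical.Herm.Comm

/-!
# Orbits of `SL_m(F)` on nonzero symmetric matrices, `|F|` odd
-/

set_option autoImplicit false
set_option linter.unusedSectionVars false
set_option linter.unusedSimpArgs false
set_option linter.unusedVariables false

namespace Cfsg.Agent.Lib.MinDeg.SymOrbit

open Matrix

variable {F : Type*} [Field F] {m k : ℕ}

/-- The bilinear form of `T`. -/
def Bf (T : Matrix (Fin m) (Fin m) F) (x y : Fin m → F) : F := x ⬝ᵥ (T *ᵥ y)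

theorem Bf_add_left (T : Matrix (Fin m) (Fin m) F) (x x' y : Fin m → F) :
    Bf T (x + x') y = Bf T x y + Bf T x' y := add_dotProduct _ _ _

theorem Bf_add_right (T : Matrix (Fin m) (Fin m) F) (x y y' : Fin m → F) :
    Bf T x (y + y') = Bf T x y + Bf T x y' := by
  simp [Bf, mulVec_add, dotProduct_add]

theorem Bf_smul_left (T : Matrix (Fin m) (Fin m) F) (c : F) (x y : Fin m → F) :
    Bf T (c • x) y = c * Bf T x y := by
  simp [Bf, smul_dotProduct]

theorem Bf_smul_right (T : Matrix (Fin m) (Fin m) F) (c : F) (x y : Fin m → F) :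
    Bf T x (c • y) = c * Bf T x y := by
  simp [Bf, mulVec_smul, dotProduct_smul]

theorem Bf_sub_left (T : Matrix (Fin m) (Fin m) F) (x x' y : Fin m → F) :
    Bf T (x - x') y = Bf T x y - Bf T x' y := by
  simp [Bf, sub_dotProduct]

theorem Bf_sub_right (T : Matrix (Fin m) (Fin m) F) (x y y' : Fin m → F) :
    Bf T x (y - y') = Bf T x y - Bf T x y' := by
  simp [Bf, mulVec_sub, dotProduct_sub]

theorem Bf_single (T : Matrix (Fin m) (Fin m) F) (i j : Fin m) :
    Bf T (Pi.single i 1) (Pi.single j 1) = T i j := by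
  classical
  simp [Bf, mulVec_single, single_dotProduct]

theorem Bf_transform (T C : Matrix (Fin m) (Fin m) F) (x y : Fin m → F) :
    Bf (Cᵀ * T * C) x y = Bf T (C *ᵥ x) (C *ᵥ y) := by
  simp only [Bf]
  rw [← mulVec_mulVec, ← mulVec_mulVec, dotProduct_mulVec x Cᵀ, vecMul_transpose]

theorem transform_apply (T C : Matrix (Fin m) (Fin m) F) (i j : Fin m) :
    (Cᵀ * T * C) i j = Bf T (C *ᵥ Pi.single i 1) (C *ᵥ Pi.single j 1) := by
  rw [← Bf_transform, Bf_single]

theorem Bf_symm {T : Matrix (Fin m) (Fin m) F} (hT : Tᵀ = T) (x y : Fin m → F) :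
    Bf T x y = Bf T y x := by
  simp only [Bf]
  rw [dotProduct_mulVec, ← mulVec_transpose, hT, dotProduct_comm]

theorem eq_zero_of_Bf {T : Matrix (Fin m) (Fin m) F} (h : ∀ x y, Bf T x y = 0) : T = 0 := by
  ext i j
  rw [← Bf_single T i j, h]
  rfl

/-- Polarisation. -/
theorem exists_aniso (h2 : (2 : F) ≠ 0) {T : Matrix (Fin m) (Fin m) F} (hT : Tᵀ = T) (hT0 : T ≠ 0) :
    ∃ x, Bf T x x ≠ 0 := by
  by_contra hc
  push Not at hc
  apply hT0
  apply eq_zero_of_Bf
  intro x y
  have h1 := hc (x + y)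
  rw [Bf_add_left, Bf_add_right, Bf_add_right, hc x, hc y, Bf_symm hT y x] at h1
  have h3 : 2 * Bf T x y = 0 := by linear_combination h1
  exact (mul_eq_zero.mp h3).resolve_left h2

/-- The orbit of `T` under `SL_m(F)`. -/
def OrbS (T : Matrix (Fin m) (Fin m) F) : Set (Matrix (Fin m) (Fin m) F) :=
  Set.range (fun C : SpecialLinearGroup (Fin m) F =>
    (C : Matrix (Fin m) (Fin m) F)ᵀ * T * (C : Matrix (Fin m) (Fin m) F))

theorem self_mem_OrbS (T : Matrix (Fin m) (Fin m) F) : T ∈ OrbS T :=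
  ⟨1, by simp⟩

theorem OrbS_subset {T T' : Matrix (Fin m) (Fin m) F} (h : T' ∈ OrbS T) : OrbS T' ⊆ OrbS T := by
  obtain ⟨C, rfl⟩ := h
  rintro _ ⟨D, rfl⟩
  refine ⟨C * D, ?_⟩
  show ((C : Matrix (Fin m) (Fin m) F) * (D : Matrix (Fin m) (Fin m) F))ᵀ * T *
    ((C : Matrix (Fin m) (Fin m) F) * (D : Matrix (Fin m) (Fin m) F)) = _
  rw [transpose_mul]
  simp only [Matrix.mul_assoc]

theorem symm_of_mem_OrbS {T T' : Matrix (Fin m) (Fin m) F} (hT : Tᵀ = T) (h : T' ∈ OrbS T) : T'ᵀ = T' := by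
  obtain ⟨C, rfl⟩ := h
  show ((C : Matrix (Fin m) (Fin m) F)ᵀ * T * (C : Matrix (Fin m) (Fin m) F))ᵀ =
    (C : Matrix (Fin m) (Fin m) F)ᵀ * T * (C : Matrix (Fin m) (Fin m) F)
  rw [transpose_mul, transpose_mul, transpose_transpose, hT, Matrix.mul_assoc]

theorem ne_zero_of_mem_OrbS {T T' : Matrix (Fin m) (Fin m) F} (hT0 : T ≠ 0) (h : T' ∈ OrbS T) :
    T' ≠ 0 := by
  obtain ⟨C, rfl⟩ := h
  intro h0
  have h0' : (C : Matrix (Fin m) (Fin m) F)ᵀ * T * (C : Matrix (Fin m) (Fin m) F) = 0 := h0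
  apply hT0
  have h2 : (C : Matrix (Fin m) (Fin m) F) * ((C⁻¹ : SpecialLinearGroup (Fin m) F) : Matrix (Fin m) (Fin m) F) = 1 := by
    have h3 : ((C * C⁻¹ : SpecialLinearGroup (Fin m) F) : Matrix (Fin m) (Fin m) F) =
      ((1 : SpecialLinearGroup (Fin m) F) : Matrix (Fin m) (Fin m) F) := by rw [mul_inv_cancel]
    exact h3
  have h1 : ((C⁻¹ : SpecialLinearGroup (Fin m) F) : Matrix (Fin m) (Fin m) F)ᵀ *
      ((C : Matrix (Fin m) (Fin m) F)ᵀ * T * (C : Matrix (Fin m) (Fin m) F)) *
      ((C⁻¹ : SpecialLinearGroup (Fin m) F) : Matrix (Fin m) (Fin m) F) = T := by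
    calc _ = ((C : Matrix (Fin m) (Fin m) F) * ((C⁻¹ : SpecialLinearGroup (Fin m) F) : Matrix (Fin m) (Fin m) F))ᵀ * T *
          ((C : Matrix (Fin m) (Fin m) F) * ((C⁻¹ : SpecialLinearGroup (Fin m) F) : Matrix (Fin m) (Fin m) F)) := by
          rw [transpose_mul]
          simp only [Matrix.mul_assoc]
      _ = T := by rw [h2]; simp
  rw [← h1, h0']
  simp

/-- The first row. -/
def firstRow (M : Matrix (Fin (k + 1)) (Fin (k + 1)) F) : F × (Fin k → F) :=
  (M 0 0, fun j => M 0 j.succ)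

variable [Fintype F]

/-- Prescribing the first row when the corner is nonzero. -/
theorem exists_first_row (T : Matrix (Fin (k + 1)) (Fin (k + 1)) F)
    (hc : T 0 0 ≠ 0) (t : Fin k → F) :
    ∃ T' ∈ OrbS T, firstRow T' = (T 0 0, t) := by
  classical
  let β : Fin (k + 1) → F := Fin.cons 0 (fun j => (t j - T 0 j.succ) / T 0 0)
  let e₀ : Fin (k + 1) → F := Pi.single 0 1
  have hβ0 : β ⬝ᵥ e₀ = 0 := by
    simp [β, e₀]
  let N : Matrix (Fin (k + 1)) (Fin (k + 1)) F := Matrix.vecMulVec e₀ β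
  have hNmul : ∀ x, N *ᵥ x = (β ⬝ᵥ x) • e₀ := by
    intro x
    funext i
    simp only [N, Matrix.vecMulVec_apply, Matrix.mulVec, dotProduct, Pi.smul_apply, smul_eq_mul,
      Finset.sum_mul, Finset.mul_sum]
    refine Finset.sum_congr rfl fun l _ => ?_
    ring
  have hN2 : N * N = 0 := by
    apply Matrix.toLin'.injective
    ext x
    simp only [Matrix.toLin'_mul, LinearMap.coe_comp, Function.comp_apply, Matrix.toLin'_apply,
      map_zero, LinearMap.zero_apply, LinearMap.coe_single, hNmul]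
    simp [hNmul, dotProduct_smul, hβ0]
  have hdet : (1 + N).det = 1 :=
    Cfsg.Agent.Lib.Classical.Herm.Comm.det_one_add_of_nilpotent N ⟨2, by rw [pow_two, hN2]⟩
  let C : SpecialLinearGroup (Fin (k + 1)) F := ⟨1 + N, hdet⟩
  have hC : ∀ x, (C : Matrix (Fin (k + 1)) (Fin (k + 1)) F) *ᵥ x = x + (β ⬝ᵥ x) • e₀ := by
    intro x
    show (1 + N) *ᵥ x = _
    rw [Matrix.add_mulVec, Matrix.one_mulVec, hNmul]
  refine ⟨_, ⟨C, rfl⟩, ?_⟩
  have h00 : ((C : Matrix (Fin (k + 1)) (Fin (k + 1)) F)ᵀ * T * (C : Matrix (Fin (k + 1)) (Fin (k + 1)) F)) 0 0 = T 0 0 := by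
    rw [transform_apply, hC, hβ0, zero_smul, add_zero, Bf_single]
  have h0j : ∀ j : Fin k, ((C : Matrix (Fin (k + 1)) (Fin (k + 1)) F)ᵀ * T * (C : Matrix (Fin (k + 1)) (Fin (k + 1)) F)) 0 j.succ = t j := by
    intro j
    rw [transform_apply, hC, hC, hβ0, zero_smul, add_zero, Bf_add_right, Bf_smul_right,
      Bf_single, Bf_single]
    have hb : β ⬝ᵥ Pi.single j.succ 1 = (t j - T 0 j.succ) / T 0 0 := by
      simp [β]
    rw [hb]
    field_simp
    ring
  simp only [firstRow]
  rw [h00]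
  congr 1
  funext j
  exact h0j j

/-- A nonzero vector gives a matrix of the orbit with corner its value. -/
theorem exists_mem_OrbS_corner (hk : 1 ≤ k)
    (T : Matrix (Fin (k + 1)) (Fin (k + 1)) F) {x : Fin (k + 1) → F} (hx : x ≠ 0) :
    ∃ T' ∈ OrbS T, T' 0 0 = Bf T x x := by
  classical
  obtain ⟨g, hg⟩ := Cfsg.Agent.Lib.Linalg.Bridge.exists_SL_mulVec_eq
    (ι := Fin (k + 1)) (F := F) (by simp; omega) (v := Pi.single 0 1) (v' := x)
    (by
      intro h
      have := congrFun h 0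
      simp at this) hx
  refine ⟨_, ⟨g, rfl⟩, ?_⟩
  show ((g : Matrix (Fin (k + 1)) (Fin (k + 1)) F)ᵀ * T * (g : Matrix (Fin (k + 1)) (Fin (k + 1)) F)) 0 0 = _
  rw [transform_apply, hg]

/-- If every nonzero value occurs, the orbit is large. -/
theorem card_OrbS_of_universal (hk : 1 ≤ k) {T : Matrix (Fin (k + 1)) (Fin (k + 1)) F}
    (huniv : ∀ ν : F, ν ≠ 0 → ∃ x, Bf T x x = ν) :
    (Fintype.card F - 1) * Fintype.card F ^ k ≤ (OrbS T).ncard := by
  classical
  let s : Finset (F × (Fin k → F)) := (Finset.univ.erase (0 : F)) ×ˢ Finset.univ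
  have hs : s.card = (Fintype.card F - 1) * Fintype.card F ^ k := by
    simp only [s]
    rw [Finset.card_product, Finset.card_erase_of_mem (Finset.mem_univ _), Finset.card_univ,
      Finset.card_univ, Fintype.card_fun, Fintype.card_fin]
  have hsub : ∀ p ∈ s, ∃ T' ∈ OrbS T, firstRow T' = p := by
    intro p hp
    obtain ⟨hν, -⟩ := Finset.mem_product.mp hp
    have hν0 : p.1 ≠ 0 := (Finset.mem_erase.mp hν).1
    obtain ⟨x, hx⟩ := huniv p.1 hν0
    have hx0 : x ≠ 0 := by
      rintro rfl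
      apply hν0
      rw [← hx]
      simp [Bf]
    obtain ⟨T₁, hT₁, hc⟩ := exists_mem_OrbS_corner hk T hx0
    rw [hx] at hc
    obtain ⟨T₂, hT₂, hf⟩ := exists_first_row T₁ (by rw [hc]; exact hν0) p.2
    refine ⟨T₂, OrbS_subset hT₁ hT₂, ?_⟩
    rw [hf, hc]
  have hfin : (OrbS T).Finite := Set.toFinite _
  have hle : s.card ≤ (hfin.toFinset.image firstRow).card := by
    apply Finset.card_le_card
    intro p hp
    obtain ⟨T', hT', rfl⟩ := hsub p hp
    exact Finset.mem_image.mpr ⟨T', hfin.mem_toFinset.mpr hT', rfl⟩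
  rw [hs] at hle
  refine hle.trans (Finset.card_image_le.trans ?_)
  rw [Set.ncard_eq_toFinset_card _ hfin]

/-- **Orbit bound.** -/
theorem card_OrbS (hk : 1 ≤ k) (hodd : Fintype.card F % 2 = 1) (h2 : (2 : F) ≠ 0)
    {T : Matrix (Fin (k + 1)) (Fin (k + 1)) F} (hT : Tᵀ = T) (hT0 : T ≠ 0) :
    Fintype.card F ^ (k + 1) - 1 ≤ 2 * (OrbS T).ncard := by
  classical
  obtain ⟨x₀, hx₀⟩ := exists_aniso h2 hT hT0
  set c := Bf T x₀ x₀ with hc
  let u : Fin (k + 1) → F := T *ᵥ x₀
  have hBu : ∀ y, Bf T x₀ y = u ⬝ᵥ y := by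
    intro y
    rw [Bf_symm hT, Bf]
    exact dotProduct_comm _ _
  by_cases hS : T = c⁻¹ • Matrix.vecMulVec u u
  · -- rank one
    have hu : u ≠ 0 := by
      intro h
      apply hT0
      rw [hS, h]
      ext i j
      simp [Matrix.vecMulVec_apply]
    let M : (Fin (k + 1) → F) → Matrix (Fin (k + 1)) (Fin (k + 1)) F :=
      fun v => c⁻¹ • Matrix.vecMulVec v v
    have hMmem : ∀ v, v ≠ 0 → M v ∈ OrbS T := by
      intro v hv
      obtain ⟨g, hg⟩ := Cfsg.Agent.Lib.Linalg.Bridge.exists_SL_mulVec_eq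
        (ι := Fin (k + 1)) (F := F) (by simp; omega) hu hv
      let C : SpecialLinearGroup (Fin (k + 1)) F :=
        ⟨(g : Matrix (Fin (k + 1)) (Fin (k + 1)) F)ᵀ, by
          rw [det_transpose]
          exact g.2⟩
      refine ⟨C, ?_⟩
      show ((g : Matrix (Fin (k + 1)) (Fin (k + 1)) F)ᵀ)ᵀ * T * (g : Matrix (Fin (k + 1)) (Fin (k + 1)) F)ᵀ = M v
      rw [transpose_transpose]
      conv_lhs => rw [hS]
      simp only [M]
      rw [Matrix.mul_smul, Matrix.smul_mul]
      congr 1
      rw [← hg]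
      ext i j
      simp only [Matrix.mul_apply, Matrix.vecMulVec_apply, Matrix.transpose_apply, Matrix.mulVec,
        dotProduct]
      rw [Finset.sum_mul_sum]
      simp only [Finset.mul_sum, Finset.sum_mul]
      rw [Finset.sum_comm]
      refine Finset.sum_congr rfl fun a _ => Finset.sum_congr rfl fun b _ => ?_
      ring
    -- counting
    let s : Finset (Fin (k + 1) → F) := Finset.univ.erase 0
    have hs : s.card = Fintype.card F ^ (k + 1) - 1 := by
      simp only [s]
      rw [Finset.card_erase_of_mem (Finset.mem_univ _), Finset.card_univ, Fintype.card_fun,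
        Fintype.card_fin]
    have hfib : ∀ b ∈ s.image M, (s.filter fun v => M v = b).card ≤ 2 := by
      intro b hb
      obtain ⟨v₀, hv₀, rfl⟩ := Finset.mem_image.mp hb
      have hv₀0 : v₀ ≠ 0 := (Finset.mem_erase.mp hv₀).1
      obtain ⟨j₀, hj₀⟩ : ∃ j, v₀ j ≠ 0 := by
        by_contra hc'
        push Not at hc'
        exact hv₀0 (funext hc')
      have hsub : (s.filter fun v => M v = M v₀) ⊆ {v₀, -v₀} := by
        intro v hv
        obtain ⟨-, hvM⟩ := Finset.mem_filter.mp hv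
        have hentry : ∀ i j, v i * v j = v₀ i * v₀ j := by
          intro i j
          have h3 := congrFun (congrFun hvM i) j
          simp only [M, Matrix.smul_apply, Matrix.vecMulVec_apply, smul_eq_mul] at h3
          exact mul_left_cancel₀ (inv_ne_zero hx₀) h3
        have h4 := hentry j₀ j₀
        have h5 : (v j₀ - v₀ j₀) * (v j₀ + v₀ j₀) = 0 := by linear_combination h4
        rcases mul_eq_zero.mp h5 with h6 | h6
        · have h7 : v j₀ = v₀ j₀ := sub_eq_zero.mp h6
          simp only [Finset.mem_insert, Finset.mem_singleton]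
          left
          funext i
          have h8 := hentry i j₀
          rw [h7] at h8
          exact mul_right_cancel₀ hj₀ h8
        · have h7 : v j₀ = - v₀ j₀ := by linear_combination h6
          simp only [Finset.mem_insert, Finset.mem_singleton]
          right
          funext i
          have h8 := hentry i j₀
          rw [h7] at h8
          have h9 : v i * v₀ j₀ = (- v₀ i) * v₀ j₀ := by linear_combination -h8
          exact mul_right_cancel₀ hj₀ h9
      exact (Finset.card_le_card hsub).trans (Finset.card_le_two)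
    have hmain := Finset.card_le_mul_card_image (f := M) s 2 hfib
    rw [hs] at hmain
    refine hmain.trans (Nat.mul_le_mul_left _ ?_)
    have hsubset : ((s.image M : Finset _) : Set _) ⊆ OrbS T := by
      intro b hb
      obtain ⟨v, hv, rfl⟩ := Finset.mem_image.mp hb
      exact hMmem v (Finset.mem_erase.mp hv).1
    have hle := Set.ncard_le_ncard hsubset (Set.toFinite _)
    rwa [Set.ncard_coe_finset] at hle
  · -- rank at least two: every nonzero value occurs
    let S : Matrix (Fin (k + 1)) (Fin (k + 1)) F := T - c⁻¹ • Matrix.vecMulVec u u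
    have hS0 : S ≠ 0 := sub_ne_zero.mpr hS
    have hSsymm : Sᵀ = S := by
      simp only [S, transpose_sub, transpose_smul, hT]
      congr 2
      ext i j
      simp [Matrix.vecMulVec_apply, mul_comm]
    obtain ⟨y, hy⟩ := exists_aniso h2 hSsymm hS0
    have hBS : Bf S y y = Bf T y y - c⁻¹ * (Bf T x₀ y) ^ 2 := by
      have h3 : (c⁻¹ • Matrix.vecMulVec u u) *ᵥ y = (c⁻¹ * (u ⬝ᵥ y)) • u := by
        rw [Matrix.smul_mulVec]
        funext i
        simp only [Pi.smul_apply, smul_eq_mul, Matrix.mulVec, dotProduct,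
          Matrix.vecMulVec_apply, Finset.mul_sum, Finset.sum_mul]
        refine Finset.sum_congr rfl fun j _ => ?_
        ring
      simp only [S, Bf]
      rw [Matrix.sub_mulVec, dotProduct_sub, h3, dotProduct_smul, smul_eq_mul]
      have h4 := hBu y
      simp only [Bf] at h4
      rw [h4, dotProduct_comm y u]
      ring
    set B := Bf T x₀ y with hB
    let y' : Fin (k + 1) → F := y - (B / c) • x₀
    have hxy' : Bf T x₀ y' = 0 := by
      simp only [y']
      rw [Bf_sub_right, Bf_smul_right, ← hc, ← hB]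
      field_simp
      ring
    have hy'x : Bf T y' x₀ = 0 := by rw [Bf_symm hT]; exact hxy'
    set d := Bf S y y with hd
    have hy'y' : Bf T y' y' = d := by
      simp only [y']
      rw [Bf_sub_left, Bf_sub_right, Bf_sub_right, Bf_smul_left, Bf_smul_right, Bf_smul_right,
        Bf_smul_left, hBS, ← hc, ← hB, Bf_symm hT y x₀, ← hB]
      field_simp
      ring
    have huniv : ∀ ν : F, ν ≠ 0 → ∃ x, Bf T x x = ν := by
      intro ν hν
      let f : Polynomial F := Polynomial.C c * Polynomial.X ^ 2 + Polynomial.C 0 * Polynomial.X + Polynomial.C (-ν)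
      let g : Polynomial F := Polynomial.C d * Polynomial.X ^ 2 + Polynomial.C 0 * Polynomial.X + Polynomial.C 0
      obtain ⟨α, β, hαβ⟩ := FiniteField.exists_root_sum_quadratic (f := f) (g := g)
        (Polynomial.degree_quadratic hx₀) (Polynomial.degree_quadratic hy) hodd
      refine ⟨α • x₀ + β • y', ?_⟩
      rw [Bf_add_left, Bf_add_right, Bf_add_right, Bf_smul_left, Bf_smul_right, Bf_smul_left,
        Bf_smul_right, Bf_smul_left, Bf_smul_right, Bf_smul_left, Bf_smul_right, hxy', hy'x, hy'y', ← hc]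
      simp only [f, g, Polynomial.eval_add, Polynomial.eval_mul, Polynomial.eval_C, Polynomial.eval_pow,
        Polynomial.eval_X] at hαβ
      linear_combination hαβ
    have h3 := card_OrbS_of_universal hk huniv
    have h4 : 2 ≤ Fintype.card F := Fintype.one_lt_card
    obtain ⟨p, hp⟩ : ∃ p, Fintype.card F = p + 2 := ⟨Fintype.card F - 2, by omega⟩
    rw [hp] at h3 ⊢
    have h5 : (p + 2) ^ (k + 1) - 1 ≤ 2 * ((p + 2 - 1) * (p + 2) ^ k) := by
      have h6 : (p + 2) ^ (k + 1) = (p + 2) * (p + 2) ^ k := by ring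
      rw [h6]
      have h7 : p + 2 - 1 = p + 1 := by omega
      rw [h7]
      have h8 : (p + 2) * (p + 2) ^ k ≤ 2 * ((p + 1) * (p + 2) ^ k) := by
        have : 2 * ((p + 1) * (p + 2) ^ k) = (2 * (p + 1)) * (p + 2) ^ k := by ring
        rw [this]
        exact Nat.mul_le_mul_right _ (by omega)
      omega
    exact h5.trans (Nat.mul_le_mul_left _ h3)

end Cfsg.Agent.Lib.MinDeg.SymOrbit
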