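import Mathlib
import Cfsg.Agent.Lib.MinDeg.Weights
import Cfsg.Agent.Lib.MinDeg.SymOrbit
import Cfsg.Agent.Lib.MinDeg.Weil.Heis

/-!
# The Siegel radical of `Sp_{2n}(q)`, `q` odd, and the degree bound `(q^n - 1)/2`

`τ_Y = [[1, 0], [Y, 1]]`, `Y` symmetric, normalised by the Levi subgroup.
-/

set_option autoImplicit false
set_option linter.unusedSectionVars false
set_option linter.unusedSimpArgs false
set_option linter.unusedVariables false

namespace Cfsg.Agent.Lib.MinDeg.SpSiegel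

open Matrix Cfsg Cfsg.Agent.Lib.Classical.Symp.Basic
open Cfsg.Agent.Lib.MinDeg.Weil.Heis Cfsg.Agent.Lib.MinDeg.SymOrbit Cfsg.Agent.Lib.MinDeg.Weights

variable {F : Type*} [Field F] [Fintype F] [DecidableEq F] {n : ℕ}

/-- The additive group of symmetric matrices. -/
def symA (n : ℕ) (F : Type*) [Field F] : AddSubgroup (Matrix (Fin n) (Fin n) F) where
  carrier := {T | Tᵀ = T}
  add_mem' := by
    intro a b ha hb
    show (a + b)ᵀ = a + b
    rw [transpose_add, ha, hb]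
  zero_mem' := by
    show (0 : Matrix (Fin n) (Fin n) F)ᵀ = 0
    simp
  neg_mem' := by
    intro a ha
    show (-a)ᵀ = -a
    rw [transpose_neg, ha]

theorem mem_symA {T : Matrix (Fin n) (Fin n) F} : T ∈ symA n F ↔ Tᵀ = T := Iff.rfl

noncomputable instance : Fintype (symA n F) := Fintype.ofFinite _

theorem aa_blk (A B C D : Matrix (Fin n) (Fin n) F) (v : Fin n ⊕ Fin n → F) :
    aa (fromBlocks A B C D *ᵥ v) = A *ᵥ aa v + B *ᵥ bb v := by
  rw [fromBlocks_mulVec]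
  rfl

theorem bb_blk (A B C D : Matrix (Fin n) (Fin n) F) (v : Fin n ⊕ Fin n → F) :
    bb (fromBlocks A B C D *ᵥ v) = C *ᵥ aa v + D *ᵥ bb v := by
  rw [fromBlocks_mulVec]
  rfl

theorem tau_mem {Y : Matrix (Fin n) (Fin n) F} (hY : Yᵀ = Y) :
    fromBlocks 1 0 Y 1 ∈ symplecticGroup (Fin n) F := by
  rw [mem_symplecticGroup_iff_forall]
  intro u v
  rw [sympForm_eq, sympForm_eq, aa_blk, aa_blk, bb_blk, bb_blk]
  simp only [one_mulVec, zero_mulVec, add_zero]
  rw [add_dotProduct, dotProduct_add]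
  have : Y *ᵥ aa u ⬝ᵥ aa v = aa u ⬝ᵥ Y *ᵥ aa v := by
    rw [dotProduct_mulVec, ← mulVec_transpose, hY]
  rw [this]
  ring

/-- The Siegel element of `Y`. -/
def tauY (Y : symA n F) : symplecticGroup (Fin n) F := ⟨fromBlocks 1 0 Y.1 1, tau_mem Y.2⟩

theorem aa_tauY (Y : symA n F) (v : Fin n ⊕ Fin n → F) :
    aa ((tauY Y : Matrix (Fin n ⊕ Fin n) (Fin n ⊕ Fin n) F) *ᵥ v) = aa v := by
  show aa (fromBlocks 1 0 Y.1 1 *ᵥ v) = _
  rw [aa_blk]
  simp

theorem bb_tauY (Y : symA n F) (v : Fin n ⊕ Fin n → F) :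
    bb ((tauY Y : Matrix (Fin n ⊕ Fin n) (Fin n ⊕ Fin n) F) *ᵥ v) = bb v + Y.1 *ᵥ aa v := by
  show bb (fromBlocks 1 0 Y.1 1 *ᵥ v) = _
  rw [bb_blk]
  simp [add_comm]

theorem sp_ext {g g' : symplecticGroup (Fin n) F}
    (h : ∀ v, (g : Matrix (Fin n ⊕ Fin n) (Fin n ⊕ Fin n) F) *ᵥ v =
      (g' : Matrix (Fin n ⊕ Fin n) (Fin n ⊕ Fin n) F) *ᵥ v) : g = g' := by
  apply Subtype.ext
  exact Matrix.mulVec_injective (funext h)

theorem tauY_add (a b : symA n F) : tauY (a + b) = tauY a * tauY b := by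
  apply sp_ext
  intro v
  apply ext_ab
  · simp only [Submonoid.coe_mul, ← mulVec_mulVec, aa_tauY]
  · simp only [Submonoid.coe_mul, ← mulVec_mulVec, bb_tauY, aa_tauY]
    have : ((a + b : symA n F) : Matrix (Fin n) (Fin n) F) = a.1 + b.1 := rfl
    rw [this, add_mulVec]
    abel

theorem tauY_zero : tauY (0 : symA n F) = 1 := by
  apply sp_ext
  intro v
  apply ext_ab
  · simp [aa_tauY]
  · simp [bb_tauY]

/-! ### The Levi part -/

theorem levi_mem {C D : Matrix (Fin n) (Fin n) F} (hDC : D * C = 1) :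
    fromBlocks C 0 0 Dᵀ ∈ symplecticGroup (Fin n) F := by
  rw [mem_symplecticGroup_iff_forall]
  intro u v
  rw [sympForm_eq, sympForm_eq, aa_blk, aa_blk, bb_blk, bb_blk]
  simp only [zero_mulVec, add_zero, zero_add]
  have h1 : ∀ x y : Fin n → F, Dᵀ *ᵥ x ⬝ᵥ C *ᵥ y = x ⬝ᵥ y := by
    intro x y
    rw [mulVec_transpose, ← dotProduct_mulVec, mulVec_mulVec, hDC, one_mulVec]
  rw [h1, dotProduct_comm (C *ᵥ aa u), h1, dotProduct_comm]
  congr 1
  exact dotProduct_comm _ _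

/-- The Levi element. -/
def levi {C D : Matrix (Fin n) (Fin n) F} (hDC : D * C = 1) : symplecticGroup (Fin n) F :=
  ⟨fromBlocks C 0 0 Dᵀ, levi_mem hDC⟩

theorem aa_levi {C D : Matrix (Fin n) (Fin n) F} (hDC : D * C = 1) (v : Fin n ⊕ Fin n → F) :
    aa ((levi hDC : Matrix (Fin n ⊕ Fin n) (Fin n ⊕ Fin n) F) *ᵥ v) = C *ᵥ aa v := by
  show aa (fromBlocks C 0 0 Dᵀ *ᵥ v) = _
  rw [aa_blk]
  simp

theorem bb_levi {C D : Matrix (Fin n) (Fin n) F} (hDC : D * C = 1) (v : Fin n ⊕ Fin n → F) :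
    bb ((levi hDC : Matrix (Fin n ⊕ Fin n) (Fin n ⊕ Fin n) F) *ᵥ v) = Dᵀ *ᵥ bb v := by
  show bb (fromBlocks C 0 0 Dᵀ *ᵥ v) = _
  rw [bb_blk]
  simp

/-- The adjoint action of `E` on `symA`. -/
def adj (E : Matrix (Fin n) (Fin n) F) (Y : symA n F) : symA n F :=
  ⟨E * Y.1 * Eᵀ, by
    show (E * Y.1 * Eᵀ)ᵀ = _
    rw [transpose_mul, transpose_mul, transpose_transpose, Y.2, Matrix.mul_assoc]⟩

@[simp] theorem adj_coe (E : Matrix (Fin n) (Fin n) F) (Y : symA n F) : (adj E Y).1 = E * Y.1 * Eᵀ := rfl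

theorem levi_conj {C D : Matrix (Fin n) (Fin n) F} (hDC : D * C = 1) (hCD : C * D = 1) (Y : symA n F) :
    levi hDC * tauY Y * (levi hDC)⁻¹ = tauY (adj Dᵀ Y) := by
  rw [mul_inv_eq_iff_eq_mul]
  apply sp_ext
  intro v
  apply ext_ab
  · simp only [Submonoid.coe_mul, ← mulVec_mulVec, aa_tauY, aa_levi]
  · simp only [Submonoid.coe_mul, ← mulVec_mulVec, bb_tauY, bb_levi, aa_levi, aa_tauY, adj_coe,
      mulVec_add, transpose_transpose]
    congr 1
    rw [mulVec_mulVec (aa v) D C, hDC, one_mulVec]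

/-- Each element of `SL_n(F)` acts on `symA` through an element of `Sp`. -/
theorem exists_levi (E : SpecialLinearGroup (Fin n) F) :
    ∃ h : symplecticGroup (Fin n) F, ∀ Y, h * tauY Y * h⁻¹ =
      tauY (adj (E : Matrix (Fin n) (Fin n) F) Y) := by
  have h1 : (E : Matrix (Fin n) (Fin n) F) * ((E⁻¹ : SpecialLinearGroup (Fin n) F) : Matrix (Fin n) (Fin n) F) = 1 := by
    have h3 : ((E * E⁻¹ : SpecialLinearGroup (Fin n) F) : Matrix (Fin n) (Fin n) F) =
      ((1 : SpecialLinearGroup (Fin n) F) : Matrix (Fin n) (Fin n) F) := by rw [mul_inv_cancel]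
    exact h3
  have h2 : ((E⁻¹ : SpecialLinearGroup (Fin n) F) : Matrix (Fin n) (Fin n) F) * (E : Matrix (Fin n) (Fin n) F) = 1 := by
    have h3 : ((E⁻¹ * E : SpecialLinearGroup (Fin n) F) : Matrix (Fin n) (Fin n) F) =
      ((1 : SpecialLinearGroup (Fin n) F) : Matrix (Fin n) (Fin n) F) := by rw [inv_mul_cancel]
    exact h3
  have hDC : (E : Matrix (Fin n) (Fin n) F)ᵀ * ((E⁻¹ : SpecialLinearGroup (Fin n) F) : Matrix (Fin n) (Fin n) F)ᵀ = 1 := by
    rw [← transpose_mul, h2, transpose_one]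
  have hCD : ((E⁻¹ : SpecialLinearGroup (Fin n) F) : Matrix (Fin n) (Fin n) F)ᵀ * (E : Matrix (Fin n) (Fin n) F)ᵀ = 1 := by
    rw [← transpose_mul, h1, transpose_one]
  refine ⟨levi hDC, fun Y => ?_⟩
  have := levi_conj hDC hCD Y
  rwa [transpose_transpose] at this

/-! ### Characters -/

/-- The character of `T`. -/
noncomputable def chiS (ψ : AddChar F ℂ) (T : Matrix (Fin n) (Fin n) F) : AddChar (symA n F) ℂ where
  toFun Y := ψ (Matrix.trace (T * Y.1))
  map_zero_eq_one' := by simp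
  map_add_eq_mul' := by
    intro a b
    simp [Matrix.mul_add, Matrix.trace_add, AddChar.map_add_eq_mul]

@[simp] theorem chiS_apply (ψ : AddChar F ℂ) (T : Matrix (Fin n) (Fin n) F) (Y : symA n F) :
    chiS ψ T Y = ψ (Matrix.trace (T * Y.1)) := rfl

theorem trace_mul_vecMulVec (T : Matrix (Fin n) (Fin n) F) (x : Fin n → F) :
    Matrix.trace (T * Matrix.vecMulVec x x) = Bf T x x := by
  simp only [Matrix.trace, Matrix.diag, Matrix.mul_apply, Matrix.vecMulVec_apply, Bf, dotProduct,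
    Matrix.mulVec, Finset.mul_sum]
  refine Finset.sum_congr rfl fun a _ => Finset.sum_congr rfl fun b _ => ?_
  ring

theorem vecMulVec_mem (x : Fin n → F) (c : F) : c • Matrix.vecMulVec x x ∈ symA n F := by
  show (c • Matrix.vecMulVec x x)ᵀ = _
  ext i j
  simp [Matrix.vecMulVec_apply, mul_comm]

theorem chiS_injOn (h2 : (2 : F) ≠ 0) {ψ : AddChar F ℂ} (hψ : ψ 1 ≠ 1)
    {T T' : Matrix (Fin n) (Fin n) F} (hT : Tᵀ = T) (hT' : T'ᵀ = T')
    (h : chiS ψ T = chiS ψ T') : T = T' := by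
  by_contra hne
  have hD : (T - T')ᵀ = T - T' := by rw [transpose_sub, hT, hT']
  have hD0 : T - T' ≠ 0 := sub_ne_zero.mpr hne
  obtain ⟨x, hx⟩ := exists_aniso h2 hD hD0
  set c := Bf (T - T') x x with hc
  let Y : symA n F := ⟨c⁻¹ • Matrix.vecMulVec x x, vecMulVec_mem x _⟩
  have h1 := DFunLike.congr_fun h Y
  simp only [chiS_apply] at h1
  have h3 : Matrix.trace (T * Y.1) - Matrix.trace (T' * Y.1) = 1 := by
    rw [← Matrix.trace_sub, ← Matrix.sub_mul]
    show Matrix.trace ((T - T') * (c⁻¹ • Matrix.vecMulVec x x)) = 1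
    rw [Matrix.mul_smul, Matrix.trace_smul, trace_mul_vecMulVec, ← hc, smul_eq_mul, inv_mul_cancel₀ hx]
  have h4 : Matrix.trace (T * Y.1) = 1 + Matrix.trace (T' * Y.1) := by linear_combination h3
  rw [h4, AddChar.map_add_eq_mul] at h1
  apply hψ
  have h5 : ψ 1 * ψ (Matrix.trace (T' * Y.1)) = 1 * ψ (Matrix.trace (T' * Y.1)) := by
    rw [h1, one_mul]
  exact mul_right_cancel₀ (psi_ne_zero _) h5

/-- Every character of `symA` is a `chiS`. -/
theorem exists_chiS (h2 : (2 : F) ≠ 0) {ψ : AddChar F ℂ} (hψ : ψ 1 ≠ 1) (χ : AddChar (symA n F) ℂ) :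
    ∃ T : symA n F, chiS ψ T.1 = χ := by
  have hinj : Function.Injective (fun T : symA n F => chiS ψ T.1) := by
    intro T T' h
    exact Subtype.ext (chiS_injOn h2 hψ T.2 T'.2 h)
  have hcard : Nat.card (symA n F) = Nat.card (AddChar (symA n F) ℂ) := by
    rw [Nat.card_eq_fintype_card, Nat.card_eq_fintype_card, AddChar.card_eq]
  have hbij := (Nat.bijective_iff_injective_and_card _).mpr ⟨hinj, hcard⟩
  exact hbij.2 χ

theorem chiS_adj (ψ : AddChar F ℂ) (T E : Matrix (Fin n) (Fin n) F) (Y : symA n F) :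
    chiS ψ T (adj E Y) = chiS ψ (Eᵀ * T * E) Y := by
  simp only [chiS_apply, adj_coe]
  congr 1
  rw [← Matrix.mul_assoc, ← Matrix.mul_assoc, Matrix.trace_mul_comm, ← Matrix.mul_assoc]
  simp only [Matrix.mul_assoc]

/-! ### The bound -/

section
variable {V : Type*} [AddCommGroup V] [Module ℂ V] (ρ : Representation ℂ (symplecticGroup (Fin n) F) V)

/-- The representation of `symA`. -/
def rOf : symA n F → Module.End ℂ V := fun Y => ρ (tauY Y)

theorem rOf_addAct : AddAct (rOf (n := n) (F := F) ρ) := by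
  constructor
  · simp [rOf, tauY_zero]
  · intro a b
    simp [rOf, tauY_add]

theorem wt_translate (ψ : AddChar F ℂ) {T E : Matrix (Fin n) (Fin n) F} {h : symplecticGroup (Fin n) F}
    (hh : ∀ Y, h * tauY Y * h⁻¹ = tauY (adj E Y)) {v : V}
    (hv : v ∈ Wt (rOf ρ) (chiS ψ T)) : ρ h⁻¹ v ∈ Wt (rOf ρ) (chiS ψ (Eᵀ * T * E)) := by
  intro Y
  show ρ (tauY Y) (ρ h⁻¹ v) = _
  have e : tauY Y * h⁻¹ = h⁻¹ * tauY (adj E Y) := by
    rw [← hh Y]
    group
  rw [← Module.End.mul_apply, ← map_mul, e, map_mul, Module.End.mul_apply]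
  have h1 : ρ (tauY (adj E Y)) v = chiS ψ T (adj E Y) • v := hv (adj E Y)
  rw [h1, map_smul, chiS_adj]

/-- **The orbit bound for `Sp`.** -/
theorem abstract_bound [FiniteDimensional ℂ V] {k : ℕ} (hn : n = k + 1) (hk : 1 ≤ k) (h2 : (2 : F) ≠ 0)
    (hodd : Fintype.card F % 2 = 1) {ψ : AddChar F ℂ} (hψ : ψ 1 ≠ 1)
    (hne : ∃ Y : symA n F, ρ (tauY Y) ≠ 1) :
    Fintype.card F ^ n - 1 ≤ 2 * Module.finrank ℂ V := by
  classical
  subst hn
  have hr := rOf_addAct (n := k + 1) (F := F) ρ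
  obtain ⟨χ, hχ, hχb⟩ := exists_wt_ne_one hr hne
  obtain ⟨⟨T, hT⟩, rfl⟩ := exists_chiS h2 hψ χ
  have hT0 : T ≠ 0 := by
    rintro rfl
    apply hχ
    ext Y
    simp
  have hcount := card_OrbS hk hodd h2 hT hT0
  have hfin : (OrbS T).Finite := Set.toFinite _
  let S : Finset (AddChar (symA (k + 1) F) ℂ) := hfin.toFinset.image (chiS ψ)
  have hScard : S.card = (OrbS T).ncard := by
    rw [Finset.card_image_of_injOn, Set.ncard_eq_toFinset_card _ hfin]
    intro a ha b hb hab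
    have ha' := hfin.mem_toFinset.mp ha
    have hb' := hfin.mem_toFinset.mp hb
    exact chiS_injOn h2 hψ (symm_of_mem_OrbS hT ha') (symm_of_mem_OrbS hT hb') hab
  have hwt : ∀ T' ∈ OrbS T, Wt (rOf ρ) (chiS ψ T') ≠ ⊥ := by
    rintro T' ⟨C, rfl⟩
    obtain ⟨v, hv, hv0⟩ := Submodule.exists_mem_ne_zero_of_ne_bot hχb
    obtain ⟨h, hh⟩ := exists_levi C
    have h1 := wt_translate ρ ψ hh hv
    intro hbot
    rw [hbot] at h1
    have h3 : ρ h⁻¹ v = 0 := (Submodule.mem_bot ℂ).mp h1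
    apply hv0
    have h4 : ρ h (ρ h⁻¹ v) = v := by
      rw [← Module.End.mul_apply, ← map_mul, mul_inv_cancel, map_one]
      rfl
    rw [← h4, h3, map_zero]
  have hmul : S.card ≤ Module.finrank ℂ V := by
    apply card_le_of_ne_bot (r := rOf ρ)
    intro μ hμ
    obtain ⟨T', hT', rfl⟩ := Finset.mem_image.mp hμ
    exact hwt T' (hfin.mem_toFinset.mp hT')
  rw [hScard] at hmul
  exact hcount.trans (Nat.mul_le_mul_left _ hmul)

end

/-! ### Nontriviality -/

theorem sympTransvection_eq_tau (i : Fin n) (c : F) :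
    sympTransvection n (mkV 0 (Pi.single i 1)) c =
      ((tauY (⟨(-c) • Matrix.vecMulVec (Pi.single i 1) (Pi.single i 1), vecMulVec_mem _ _⟩ : symA n F) :
        symplecticGroup (Fin n) F) : Matrix (Fin n ⊕ Fin n) (Fin n ⊕ Fin n) F) := by
  apply Matrix.mulVec_injective
  funext x
  rw [sympTransvection_mulVec]
  apply ext_ab
  · rw [aa_tauY, aa_add]
    have h1 : aa ((c * sympForm n F x (mkV 0 (Pi.single i 1))) • (mkV 0 (Pi.single i 1) : Fin n ⊕ Fin n → F)) = 0 := by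
      funext j
      simp [aa, mkV]
    rw [h1, add_zero]
  · rw [bb_tauY, bb_add]
    congr 1
    rw [sympForm_eq]
    simp only [aa_mkV, bb_mkV, dotProduct_zero, dotProduct_single, mul_one, zero_sub]
    have hv : ∀ (u a : Fin n → F), Matrix.vecMulVec u u *ᵥ a = (u ⬝ᵥ a) • u := by
      intro u a
      funext j
      simp only [Pi.smul_apply, smul_eq_mul, Matrix.mulVec, dotProduct, Matrix.vecMulVec_apply,
        Finset.mul_sum, Finset.sum_mul]
      refine Finset.sum_congr rfl fun l _ => ?_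
      ring
    rw [Matrix.smul_mulVec, hv, single_one_dotProduct, smul_smul]
    have h3 : bb ((c * -aa x i) • (mkV 0 (Pi.single i 1) : Fin n ⊕ Fin n → F)) =
        (c * -aa x i) • (Pi.single i 1 : Fin n → F) := rfl
    rw [h3]
    congr 1
    ring

theorem exists_ne_tauY (hn : 1 ≤ n) {V : Type*} [AddCommGroup V] [Module ℂ V]
    (ρ : Representation ℂ (symplecticGroup (Fin n) F) V) (hρ : ∃ g, ρ g ≠ 1) :
    ∃ Y : symA n F, ρ (tauY Y) ≠ 1 := by
  classical
  by_contra hc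
  push Not at hc
  obtain ⟨g, hg⟩ := hρ
  apply hg
  let i₀ : Fin n := ⟨0, by omega⟩
  let w₀ : Fin n ⊕ Fin n → F := mkV 0 (Pi.single i₀ 1)
  have hw₀ : w₀ ≠ 0 := by
    intro h
    have h1 := congrFun h (Sum.inr i₀)
    simp [w₀, mkV] at h1
  have hgen : ∀ A ∈ sympTvSet n F, ρ A = 1 := by
    rintro A ⟨w, c, hA⟩
    by_cases hw : w = 0
    · have h1 : A = 1 := by
        apply sp_ext
        intro v
        rw [hA, sympTransvection_mulVec, hw]
        simp
      rw [h1, map_one]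
    obtain ⟨B, -, hB⟩ := closure_transitive_vec hw₀ hw
    have h1 := conj_sympTransvection B.2 w₀ c
    rw [hB] at h1
    have h3 : A = B * tauY (⟨(-c) • Matrix.vecMulVec (Pi.single i₀ 1) (Pi.single i₀ 1), vecMulVec_mem _ _⟩ : symA n F) * B⁻¹ := by
      apply Subtype.ext
      rw [hA, ← h1, sympTransvection_eq_tau]
      simp only [Submonoid.coe_mul]
      rw [SymplecticGroup.coe_inv']
    rw [h3, map_mul, map_mul, hc, mul_one, ← map_mul, mul_inv_cancel, map_one]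
  have hall : ∀ g : symplecticGroup (Fin n) F, ρ g = 1 := by
    intro g
    have hg' : g ∈ Subgroup.closure (sympTvSet n F) := by
      rw [closure_sympTvSet]
      trivial
    refine Subgroup.closure_induction hgen (map_one ρ) (fun x y _ _ hx hy => ?_) (fun x _ hx => ?_) hg'
    · rw [map_mul, hx, hy, mul_one]
    · have h1 : ρ x⁻¹ * ρ x = 1 := by
        rw [← map_mul, inv_mul_cancel, map_one]
      rwa [hx, mul_one] at h1
  exact hall g

/-- **The lower bound** -/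
theorem lower_bound (hn : 2 ≤ n) (hodd : Odd (Fintype.card F)) {k : ℕ}
    (ρ : Representation ℂ (symplecticGroup (Fin n) F) (Fin k → ℂ)) (hρ : ρ.IsIrreducible) (hk : 2 ≤ k) :
    (Fintype.card F ^ n - 1) / 2 ≤ k := by
  classical
  have hodd' : Fintype.card F % 2 = 1 := Nat.odd_iff.mp hodd
  have hchar : ringChar F ≠ 2 := by
    intro h
    have := FiniteField.even_card_iff_char_two.mp h
    omega
  have h2 : (2 : F) ≠ 0 := Ring.two_ne_zero hchar
  obtain ⟨ψ, hψ⟩ : ∃ ψ : AddChar F ℂ, ψ 1 ≠ 1 :=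
    AddChar.exists_apply_ne_zero.mpr one_ne_zero
  obtain ⟨k', hk'⟩ : ∃ k', n = k' + 1 := ⟨n - 1, by omega⟩
  have h1 := abstract_bound ρ hk' (by omega) h2 hodd' hψ
    (exists_ne_tauY (by omega) ρ (exists_ne_one_of_irreducible hρ hk))
  rw [Module.finrank_fin_fun] at h1
  apply Nat.div_le_of_le_mul
  exact h1

end Cfsg.Agent.Lib.MinDeg.SpSiegel
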